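import Cfsg.Agent.Lib.OddChar.Basic
import Cfsg.Agent.Lib.Char.Clifford2
import Cfsg.Agent.Lib.Char.Monomial
import Cfsg.Agent.Lib.Char.Brauer
import Cfsg.Agent.Lib.Degree.Inflate

/-!
# The Clifford correspondence, and inertia groups with abelian quotient.
-/

set_option autoImplicit false

open scoped ComplexConjugate ComplexOrder

namespace Cfsg.Agent.Lib.OddChar

open Cfsg (classInner IsCharacter IsIrrCharacter IrrCharacter IsClassFunction extendByZero indFun)
open Cfsg.Agent.Lib.Char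

universe u

section Inj

variable {G : Type u} [Group G] [Fintype G] {H T : Subgroup G}

/-- Injectivity in the Clifford correspondence. -/
theorem clifford_injective (hN : H.Normal) [Fintype H] [Fintype T] {θ : H → ℂ}
    (hθ : IsIrrCharacter H θ) (hT : T = inertia hN θ) (hHT : H ≤ T) {ψ ψ' : T → ℂ}
    (hψ : IsIrrCharacter T ψ) (hψ' : IsIrrCharacter T ψ')
    (hc : classInner (fun n : H => ψ ⟨n, hHT n.2⟩) θ ≠ 0)
    (hc' : classInner (fun n : H => ψ' ⟨n, hHT n.2⟩) θ ≠ 0)
    (heq : indFun T ψ = indFun T ψ') : ψ = ψ' := by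
  classical
  by_contra hne
  have hχ := indFun_isIrr_of_over hN hθ hT hHT hψ hc
  have hχc := IsIrrCharacter.isCharacter hχ
  have hcl := IsCharacter.isClassFunction hχc
  have hres : IsCharacter T (fun t : T => indFun T ψ t) := IsCharacter.restrict T hχc
  have h1 : classInner (fun t : T => indFun T ψ t) ψ = 1 := by
    rw [← frobenius_reciprocity' T ψ _ hcl]
    exact classInner_irr_self hχ
  have h2 : classInner (fun t : T => indFun T ψ t) ψ' = 1 := by
    rw [← frobenius_reciprocity' T ψ' _ hcl, ← heq]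
    exact classInner_irr_self hχ
  have hΔ := isCharacter_sub_of_constituent hres hψ (by rw [h1]; exact one_ne_zero)
  have h3 : classInner ((fun t : T => indFun T ψ t) - ψ) ψ' = 1 := by
    have h4 : classInner ψ ψ' = 0 := classInner_irr_of_ne hψ hψ' hne
    have h5 := classInner_add_left ((fun t : T => indFun T ψ t) - ψ) ψ ψ'
    rw [sub_add_cancel, h2, h4, add_zero] at h5
    exact h5.symm
  have hΔ' := isCharacter_sub_of_constituent hΔ hψ' (by rw [h3]; exact one_ne_zero)
  obtain ⟨_, h6⟩ := clifford_corresp_core hN hθ hT hHT hψ hc hχ (by rw [h1]; exact one_ne_zero)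
  have hincl : ∀ {f : T → ℂ}, IsCharacter T f → IsCharacter H (fun n : H => f ⟨n, hHT n.2⟩) :=
    fun hf => IsCharacter.comp (Subgroup.inclusion hHT) hf
  obtain ⟨a, ha⟩ := classInner_isCharacter_nat (hincl (IsIrrCharacter.isCharacter hψ'))
    (IsIrrCharacter.isCharacter hθ)
  obtain ⟨c, hc2⟩ := classInner_isCharacter_nat (hincl hΔ') (IsIrrCharacter.isCharacter hθ)
  have hdec : (fun n : H => indFun T ψ n) = (fun n : H => ψ ⟨n, hHT n.2⟩) +
      ((fun n : H => ψ' ⟨n, hHT n.2⟩) + (fun n : H => (((fun t : T => indFun T ψ t) - ψ) - ψ') ⟨n, hHT n.2⟩)) := by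
    funext n
    simp
  rw [hdec, classInner_add_left, classInner_add_left, ha, hc2] at h6
  have h7 : ((a + c : ℕ) : ℂ) = 0 := by
    push_cast
    have := h6
    linear_combination -this
  have h8 : a + c = 0 := by exact_mod_cast h7
  apply hc'
  rw [ha]
  have : a = 0 := by omega
  simp [this]

end Inj

section Ab

variable {T : Type u} [Group T] [Fintype T] {N : Subgroup T}

/-- An irreducible character with kernel containing `N`, with abelian quotient, is linear. -/
theorem linear_of_ker [hN : N.Normal] (hab : ∀ x y : T, x * y * x⁻¹ * y⁻¹ ∈ N) {lam : T → ℂ}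
    (hlam : IsIrrCharacter T lam) (hker : ∀ n ∈ N, lam n = lam 1) : lam 1 = 1 := by
  classical
  obtain ⟨ψ, hψ⟩ := Cfsg.Agent.Lib.Degree.exists_inflate N (χ := ⟨lam, hlam⟩) hker
  have hcomm : ∀ a b : T ⧸ N, a * b = b * a := by
    intro a b
    induction a using QuotientGroup.induction_on with | _ x => ?_
    induction b using QuotientGroup.induction_on with | _ y => ?_
    rw [← QuotientGroup.mk_mul, ← QuotientGroup.mk_mul, QuotientGroup.eq]
    have := hab y⁻¹ x⁻¹
    convert this using 1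
    group
  have h1 := charDegree_eq_one_of_comm hcomm ψ.2
  have h2 := congrArg (fun χ : IrrCharacter T => (χ : T → ℂ) 1) hψ
  simp only [Cfsg.Agent.Lib.Degree.inflate_apply] at h2
  rw [← h2]
  simpa using h1

variable [Fintype N]

/-- Two irreducible characters over the same invariant character, with abelian quotient, have the
same degree. -/
theorem degree_eq_of_over (hN : N.Normal) (hab : ∀ x y : T, x * y * x⁻¹ * y⁻¹ ∈ N) {θ : N → ℂ}
    (hθ : IsIrrCharacter N θ) (hinv : ∀ g, conjFn hN g θ = θ) {ψ ψ' : T → ℂ}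
    (hψ : IsIrrCharacter T ψ) (hψ' : IsIrrCharacter T ψ')
    (hc : classInner (fun n : N => ψ n) θ ≠ 0) (hc' : classInner (fun n : N => ψ' n) θ ≠ 0) :
    ψ 1 = ψ' 1 := by
  classical
  have hψc := IsIrrCharacter.isCharacter hψ
  have hψ'c := IsIrrCharacter.isCharacter hψ'
  have hθc := IsIrrCharacter.isCharacter hθ
  set β : T → ℂ := indFun N (fun _ => 1) with hβdef
  have hβ : IsClassFunction T β := indFun_isClassFunction N _
  have hres := clifford_invariant hN hψ hθ hinv hc
  set e := classInner (fun n : N => ψ n) θ with he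
  have hprod : β * ψ = e • indFun N θ := by
    rw [hβdef, indFun_mul_class N _ ψ (IsCharacter.isClassFunction hψc)]
    have : ((fun _ => 1 : N → ℂ) * fun k : N => ψ k) = e • θ := by
      rw [← hres]
      funext k
      simp
    rw [this, indFun_smul]
  have hne : classInner (β * ψ) ψ' ≠ 0 := by
    rw [hprod, classInner_smul_left, frobenius_reciprocity N θ ψ' (IsCharacter.isClassFunction hψ'c)]
    refine mul_ne_zero hc ?_
    intro h
    apply hc'
    rw [← conj_classInner, h, map_zero]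
  have hexp := classFunction_eq_sum β hβ
  have hsum : classInner (β * ψ) ψ' = ∑ lam : IrrCharacter T, classInner β (lam : T → ℂ) *
      classInner ((lam : T → ℂ) * ψ) ψ' := by
    conv_lhs => rw [hexp, Finset.sum_mul, classInner_sum_left]
    refine Finset.sum_congr rfl fun lam _ => ?_
    rw [smul_mul_assoc, classInner_smul_left]
  rw [hsum] at hne
  obtain ⟨lam, -, hlam⟩ := Finset.exists_ne_zero_of_sum_ne_zero hne
  have hl1 : classInner β (lam : T → ℂ) ≠ 0 := left_ne_zero_of_mul hlam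
  have hl2 : classInner ((lam : T → ℂ) * ψ) ψ' ≠ 0 := right_ne_zero_of_mul hlam
  have hlamc := IsIrrCharacter.isCharacter lam.2
  have hcl := IsCharacter.isClassFunction hlamc
  -- the kernel of `lam` contains `N`
  have hone : IsIrrCharacter N (fun _ => 1) := isIrrCharacter_one
  have hl3 : classInner (fun n : N => (lam : T → ℂ) n) (fun _ => 1) ≠ 0 := by
    rw [hβdef, frobenius_reciprocity N _ _ hcl] at hl1
    intro h
    apply hl1
    rw [← conj_classInner, h, map_zero]
  have hres2 := clifford_invariant hN lam.2 hone (fun g => rfl) hl3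
  have hker : ∀ n ∈ N, (lam : T → ℂ) n = (lam : T → ℂ) 1 := by
    intro n hn
    have h1 := congrFun hres2 ⟨n, hn⟩
    have h2 := congrFun hres2 1
    simp only [Pi.smul_apply, smul_eq_mul] at h1 h2
    rw [h1]
    rw [OneMemClass.coe_one] at h2
    rw [h2]
  have hl1' := linear_of_ker hab lam.2 hker
  have hirr : IsIrrCharacter T ((lam : T → ℂ) * ψ) := by
    rw [mul_comm]
    exact isIrr_mul_linear hψ hlamc hl1'
  have heq : (lam : T → ℂ) * ψ = ψ' := by
    by_contra h
    exact hl2 (classInner_irr_of_ne hirr hψ' h)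
  rw [← heq]
  simp [hl1']

end Ab

section Sub

variable {G : Type u} [Group G] [Fintype G] {H T : Subgroup G}

/-- The identification of `H` with its copy in `T`. -/
noncomputable def subEquiv (hHT : H ≤ T) : ↥(H.subgroupOf T) ≃* H :=
  Subgroup.subgroupOfEquivOfLe hHT

theorem subEquiv_apply (hHT : H ≤ T) (x : ↥(H.subgroupOf T)) :
    ((subEquiv hHT x : H) : G) = ((x : T) : G) := rfl

/-- The inner product with an induced function from the copy of `H` in `T`. -/
theorem classInner_indFun_subgroupOf [Fintype H] [Fintype T] (hHT : H ≤ T) (θ : H → ℂ) {ψ : T → ℂ}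
    (hψ : IsClassFunction T ψ) :
    classInner (indFun (H.subgroupOf T) (fun x => θ ⟨(x : T), Subgroup.mem_subgroupOf.mp x.2⟩)) ψ =
      classInner θ (fun n : H => ψ ⟨n, hHT n.2⟩) := by
  classical
  letI : Fintype ↥(H.subgroupOf T) := Fintype.ofFinite _
  rw [frobenius_reciprocity _ _ ψ hψ]
  exact classInner_comp_equiv (subEquiv hHT) θ (fun n : H => ψ ⟨n, hHT n.2⟩)

end Sub


section Core

variable {G : Type u} [Group G] [Fintype G] {H T : Subgroup G}

/-- The structure of the induced character when the inertia group has abelian quotient. -/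
theorem abelian_inertia (hN : H.Normal) [Fintype H] [Fintype T] {θ : H → ℂ}
    (hθ : IsIrrCharacter H θ) (hT : T = inertia hN θ)
    (hab : ∀ x ∈ T, ∀ y ∈ T, x * y * x⁻¹ * y⁻¹ ∈ H) (hHT : H ≤ T) :
    ∃ (e : ℕ) (C : Finset (G → ℂ)), 0 < e ∧ (∀ χ ∈ C, IsIrrCharacter G χ) ∧
      e ^ 2 * C.card * Nat.card H = Nat.card T ∧ indFun H θ = (e : ℂ) • ∑ χ ∈ C, χ ∧
      (∀ χ ∈ C, χ 1 = (T.index : ℂ) * e * θ 1) ∧
      ∀ ψ : T → ℂ, IsIrrCharacter T ψ → classInner (fun n : H => ψ ⟨n, hHT n.2⟩) θ ≠ 0 →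
        ψ 1 = (e : ℂ) * θ 1 := by
  classical
  letI : Fintype ↥(H.subgroupOf T) := Fintype.ofFinite _
  have hθc := IsIrrCharacter.isCharacter hθ
  have hθ1 : θ 1 ≠ 0 := map_one_ne_zero_of_irr hθ
  set N : Subgroup T := H.subgroupOf T with hNdef
  have hNn : N.Normal := Subgroup.normal_subgroupOf
  set θ' : N → ℂ := fun x => θ ⟨(x : T), Subgroup.mem_subgroupOf.mp x.2⟩ with hθ'def
  have hθ'e : θ' = θ ∘ (subEquiv hHT) := rfl
  have hθ' : IsIrrCharacter N θ' := by
    rw [hθ'e]
    exact isIrr_comp_equiv _ hθ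
  have hinv : ∀ g, conjFn hNn g θ' = θ' := by
    intro t
    funext x
    have h1 : (t : G) ∈ inertia hN θ := hT ▸ t.2
    have h2 := (mem_inertia_iff hN θ _).mp h1 ⟨(x : T), Subgroup.mem_subgroupOf.mp x.2⟩
    exact h2
  have hab' : ∀ x y : T, x * y * x⁻¹ * y⁻¹ ∈ N := fun x y =>
    Subgroup.mem_subgroupOf.mpr (hab x x.2 y y.2)
  -- translation of inner products
  have htr : ∀ ψ : T → ℂ, classInner (fun n : N => ψ n) θ' =
      classInner (fun n : H => ψ ⟨n, hHT n.2⟩) θ := fun ψ =>
    classInner_comp_equiv (subEquiv hHT) (fun n : H => ψ ⟨n, hHT n.2⟩) θ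
  have hindc : IsCharacter T (indFun N θ') := indFun_isCharacter N (IsIrrCharacter.isCharacter hθ')
  have hind1 : indFun N θ' 1 = (N.index : ℂ) * θ 1 := by
    rw [indFun_one]
    rfl
  have hNi : (N.index : ℂ) ≠ 0 := by
    exact_mod_cast Subgroup.index_ne_zero_of_finite
  have hindne : indFun N θ' ≠ 0 := by
    intro h
    have := hind1
    rw [h] at this
    exact mul_ne_zero hNi hθ1 this.symm
  obtain ⟨ψ₀, hψ₀, hψ₀c⟩ := exists_constituent hindc hindne
  have hfrob : ∀ ψ : T → ℂ, IsCharacter T ψ →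
      classInner (indFun N θ') ψ = classInner (fun n : N => ψ n) θ' := by
    intro ψ hψ
    rw [frobenius_reciprocity N θ' ψ (IsCharacter.isClassFunction hψ)]
    obtain ⟨m, hm⟩ := classInner_isCharacter_nat (IsCharacter.restrict N hψ) (IsIrrCharacter.isCharacter hθ')
    rw [← conj_classInner, hm]
    simp
  have hψ₀c' : classInner (fun n : N => ψ₀ n) θ' ≠ 0 := by
    rw [← hfrob ψ₀ (IsIrrCharacter.isCharacter hψ₀)]
    exact hψ₀c
  obtain ⟨e, he⟩ := classInner_isCharacter_nat
    (IsCharacter.restrict N (IsIrrCharacter.isCharacter hψ₀)) (IsIrrCharacter.isCharacter hθ')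
  have he0 : e ≠ 0 := by
    rintro rfl
    apply hψ₀c'
    rw [he]
    simp
  have hdeg₀ : ψ₀ 1 = (e : ℂ) * θ 1 := by
    have h1 := clifford_invariant hNn hψ₀ hθ' hinv hψ₀c'
    have h2 := congrFun h1 1
    rw [he] at h2
    simp only [Pi.smul_apply, smul_eq_mul, OneMemClass.coe_one] at h2
    exact h2
  -- uniformity
  have huni : ∀ ψ : T → ℂ, IsIrrCharacter T ψ → classInner (fun n : N => ψ n) θ' ≠ 0 →
      classInner (fun n : N => ψ n) θ' = e := by
    intro ψ hψ hne
    have h1 := clifford_invariant hNn hψ hθ' hinv hne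
    have h2 := congrFun h1 1
    have h3 := degree_eq_of_over hNn hab' hθ' hinv hψ hψ₀ hne hψ₀c'
    simp only [Pi.smul_apply, smul_eq_mul, OneMemClass.coe_one] at h2
    rw [h3, hdeg₀] at h2
    have h4 : θ' 1 = θ 1 := rfl
    rw [h4] at h2
    exact (mul_right_cancel₀ hθ1 h2).symm
  let S : Finset (IrrCharacter T) := Finset.univ.filter fun ψ =>
    classInner (fun n : N => (ψ : T → ℂ) n) θ' ≠ 0
  have hmemS : ∀ ψ : IrrCharacter T, ψ ∈ S ↔ classInner (fun n : N => (ψ : T → ℂ) n) θ' ≠ 0 := by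
    intro ψ
    simp [S]
  have hexp : indFun N θ' = (e : ℂ) • ∑ ψ ∈ S, (ψ : T → ℂ) := by
    conv_lhs => rw [classFunction_eq_sum _ (IsCharacter.isClassFunction hindc)]
    rw [Finset.smul_sum, ← Finset.sum_filter_of_ne (s := Finset.univ) (p := fun ψ : IrrCharacter T => classInner (fun n : N => (ψ : T → ℂ) n) θ' ≠ 0)]
    · refine Finset.sum_congr rfl fun ψ hψ => ?_
      rw [hfrob _ (IsIrrCharacter.isCharacter ψ.2), huni _ ψ.2 ((hmemS ψ).mp hψ)]
    · intro ψ _ hne h0
      rw [hfrob _ (IsIrrCharacter.isCharacter ψ.2), h0, zero_smul] at hne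
      exact hne rfl
  have hdegS : ∀ ψ ∈ S, (ψ : T → ℂ) 1 = (e : ℂ) * θ 1 := by
    intro ψ hψ
    rw [← hdeg₀]
    exact degree_eq_of_over hNn hab' hθ' hinv ψ.2 hψ₀ ((hmemS ψ).mp hψ) hψ₀c'
  have hnum : (N.index : ℂ) = (e : ℂ) ^ 2 * (S.card : ℂ) := by
    have h1 := congrFun hexp 1
    rw [hind1] at h1
    simp only [Pi.smul_apply, Finset.sum_apply, smul_eq_mul] at h1
    rw [Finset.sum_congr rfl hdegS, Finset.sum_const, nsmul_eq_mul] at h1
    apply mul_right_cancel₀ hθ1
    rw [h1]
    ring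
  have hnumN : N.index = e ^ 2 * S.card := by exact_mod_cast hnum
  have hinj : Set.InjOn (fun ψ : IrrCharacter T => indFun T (ψ : T → ℂ)) (S : Set (IrrCharacter T)) := by
    intro ψ hψ ψ' hψ' h
    have h1 : classInner (fun n : H => (ψ : T → ℂ) ⟨n, hHT n.2⟩) θ ≠ 0 := by
      rw [← htr]; exact (hmemS ψ).mp hψ
    have h2 : classInner (fun n : H => (ψ' : T → ℂ) ⟨n, hHT n.2⟩) θ ≠ 0 := by
      rw [← htr]; exact (hmemS ψ').mp hψ'
    exact Subtype.ext (clifford_injective hN hθ hT hHT ψ.2 ψ'.2 h1 h2 h)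
  refine ⟨e, S.image fun ψ : IrrCharacter T => indFun T (ψ : T → ℂ), Nat.pos_of_ne_zero he0, ?_, ?_, ?_, ?_, ?_⟩
  · intro χ hχ
    obtain ⟨ψ, hψ, rfl⟩ := Finset.mem_image.mp hχ
    refine indFun_isIrr_of_over hN hθ hT hHT ψ.2 ?_
    rw [← htr]
    exact (hmemS ψ).mp hψ
  · rw [Finset.card_image_of_injOn hinj, ← hnumN]
    have h1 := N.card_mul_index
    have h2 : Nat.card N = Nat.card H := Nat.card_congr (subEquiv hHT).toEquiv
    rw [h2] at h1
    rw [← h1, mul_comm]
  · rw [← indFun_trans H T hHT θ, hexp, indFun_smul, indFun_sum, Finset.sum_image hinj]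
  · intro χ hχ
    obtain ⟨ψ, hψ, rfl⟩ := Finset.mem_image.mp hχ
    rw [indFun_one, hdegS ψ hψ]
    ring
  · intro ψ hψ hne
    rw [← htr] at hne
    have h1 := clifford_invariant hNn hψ hθ' hinv hne
    have h2 := congrFun h1 1
    rw [huni ψ hψ hne] at h2
    simp only [Pi.smul_apply, smul_eq_mul, OneMemClass.coe_one] at h2
    exact h2

end Core

end Cfsg.Agent.Lib.OddChar
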