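import Mathlib
import Cfsg.Agent.Lib.OddChar.Coh6

/-!
# Coherence of a set of irreducible characters of the same degree.
-/

set_option autoImplicit false

open scoped ComplexConjugate

namespace Cfsg.Agent.Lib.OddChar

open Cfsg (classInner IsCharacter IsIrrCharacter IsClassFunction IsGeneralizedCharacter zspan zspanOn
  conjFun IsLinearIsometryOn IsCoherent IsCoherenceSystem IrrCharacter indFun extendByZero
  inducedIrrAbove charDegree)
open Cfsg.Agent.Lib.Char Cfsg.Agent.Lib.Degree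

universe u v

section Main

variable {L : Type u} [Group L] [Fintype L] {G : Type v} [Group G] [Fintype G]

omit [Fintype L] in
theorem inner_irr_ite {a b : G → ℂ} (ha : IsIrrCharacter G a) (hb : IsIrrCharacter G b) [Decidable (a = b)] :
    classInner a b = if a = b then 1 else 0 := by
  split_ifs with h
  · subst h
    exact classInner_irr_self ha
  · exact classInner_irr_of_ne ha hb h

/-- The chain producing the coherent extension from the image of one character. -/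
theorem coh_of_image {S : Set (L → ℂ)} (hfin : S.Finite) (hirr : ∀ χ ∈ S, IsIrrCharacter L χ)
    (hdeg : ∀ φ ∈ S, ∀ ψ ∈ S, φ 1 = ψ 1)
    {τ : (L → ℂ) → (G → ℂ)} (hτ : IsLinearIsometryOn (zspanOn S {1}ᶜ) τ)
    {χ₀ : L → ℂ} (hχ₀ : χ₀ ∈ S) {X₀ : G → ℂ} (hXgen : IsGeneralizedCharacter G X₀)
    (hXnorm : classInner X₀ X₀ = 1)
    (hXin : ∀ φ ∈ S, classInner (τ (φ - χ₀)) X₀ = classInner φ χ₀ - 1) :
    ∃ τ₁ : (L → ℂ) → (G → ℂ), IsLinearIsometryOn (zspan S) τ₁ ∧ ∀ α ∈ zspanOn S {1}ᶜ, τ₁ α = τ α := by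
  classical
  have hmemd : ∀ φ ∈ S, φ - χ₀ ∈ zspanOn S ({1}ᶜ : Set L) := by
    intro φ hφ
    refine mem_zspanOn_one.mpr ⟨zspan_sub (mem_zspan_of_mem hφ) (mem_zspan_of_mem hχ₀), ?_⟩
    simp [hdeg φ hφ χ₀ hχ₀]
  have hn : classInner χ₀ χ₀ = 1 := classInner_irr_self (hirr χ₀ hχ₀)
  let T : (L → ℂ) → (G → ℂ) := fun φ => τ (φ - χ₀) + X₀
  have hTgen : ∀ φ ∈ S, IsGeneralizedCharacter G (T φ) := fun φ hφ =>
    IsGeneralizedCharacter.add (hτ.2.2.2 _ (hmemd φ hφ)) hXgen
  have hXin' : ∀ φ ∈ S, classInner X₀ (τ (φ - χ₀)) = classInner χ₀ φ - 1 := by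
    intro φ hφ
    rw [← conj_classInner, hXin φ hφ, map_sub, conj_classInner, map_one]
  have hTin : ∀ φ ∈ S, ∀ φ' ∈ S, classInner (T φ) (T φ') = classInner φ φ' := by
    intro φ hφ φ' hφ'
    have h1 := hXin' φ' hφ'
    have h2 := hXin φ hφ
    simp only [T]
    rw [classInner_add_left, classInner_add_right, classInner_add_right, h1, h2, hXnorm,
      hτ.2.2.1 _ (hmemd φ hφ) _ (hmemd φ' hφ'), classInner_sub_left, classInner_sub_right,
      classInner_sub_right, hn]
    ring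
  have hTχ₀ : T χ₀ = X₀ := by
    simp only [T]
    rw [sub_self, isometry_zero hτ zspanOn_zero, zero_add]
  have hχ0 : classInner χ₀ χ₀ ≠ 0 := by
    rw [hn]
    exact one_ne_zero
  have hχ1 : χ₀ 1 ≠ 0 := map_one_ne_zero_of_irr (hirr χ₀ hχ₀)
  have key : ∀ U : Finset (L → ℂ), (↑U : Set (L → ℂ)) ⊆ S →
      ∃ τ₁ : (L → ℂ) → (G → ℂ), CohExt (insert χ₀ (↑U : Set (L → ℂ))) τ τ₁ ∧
        ∀ φ ∈ insert χ₀ (↑U : Set (L → ℂ)), τ₁ φ = T φ := by
    intro U
    induction U using Finset.induction_on with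
    | empty =>
      intro _
      obtain ⟨τ₁, h1, h2⟩ := cohExt_singleton hχ₀ hτ hχ0 hχ1 hXgen (by rw [hXnorm, hn])
      refine ⟨τ₁, ?_, ?_⟩
      · simpa using h1
      · intro φ hφ
        have : φ = χ₀ := by simpa using hφ
        rw [this, h2, hTχ₀]
    | insert φ U hφU ih =>
      intro hsub
      have hU : (↑U : Set (L → ℂ)) ⊆ S := fun f hf => hsub (by simp [Finset.mem_coe.mp hf])
      have hφS : φ ∈ S := hsub (by simp)
      obtain ⟨τ₁, h1, h2⟩ := ih hU
      rw [Finset.coe_insert, Set.insert_comm]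
      by_cases hin : φ ∈ insert χ₀ (↑U : Set (L → ℂ))
      · rw [Set.insert_eq_of_mem hin]
        exact ⟨τ₁, h1, h2⟩
      have hsub' : insert φ (insert χ₀ (↑U : Set (L → ℂ))) ⊆ S := by
        intro f hf
        rcases hf with rfl | rfl | hf
        · exact hφS
        · exact hχ₀
        · exact hU hf
      have hφorth : ∀ f ∈ insert χ₀ (↑U : Set (L → ℂ)), classInner f φ = 0 := by
        intro f hf
        refine classInner_irr_of_ne (hirr f (hsub' (Set.mem_insert_of_mem _ hf))) (hirr φ hφS) ?_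
        rintro rfl
        exact hin hf
      have hφ0 : classInner φ φ ≠ 0 := by
        rw [classInner_irr_self (hirr φ hφS)]
        exact one_ne_zero
      obtain ⟨τ₂, h3, h4, h5⟩ := cohExt_insert (S := insert χ₀ (↑U : Set (L → ℂ))) (a := 1) (ψ := χ₀)
        hsub' hτ h1 hφorth hφ0 (Set.mem_insert _ _) (by simp [hdeg φ hφS χ₀ hχ₀]) (X := T φ)
        (by
          rw [h2 χ₀ (Set.mem_insert _ _), hTχ₀]
          simp [T])
        (hTgen φ hφS) (hTin φ hφS φ hφS)
        (by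
          intro f hf
          rw [h2 f hf, hTin f (hsub' (Set.mem_insert_of_mem _ hf)) φ hφS]
          exact hφorth f hf)
      refine ⟨τ₂, h3, ?_⟩
      intro f hf
      rcases hf with rfl | hf
      · exact h4
      · rw [h5 f hf, h2 f hf]
  obtain ⟨τ₁, h1, -⟩ := key hfin.toFinset (by simp)
  have hset : insert χ₀ (↑hfin.toFinset : Set (L → ℂ)) = S := by
    simp only [Set.Finite.coe_toFinset]
    exact Set.insert_eq_of_mem hχ₀
  rw [hset] at h1
  exact ⟨τ₁, h1.1, h1.2⟩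

/-- A norm two generalized character vanishing at `1` is the difference of two distinct irreducible
characters. -/
theorem exists_irr_sub {f : G → ℂ} (h : IsGeneralizedCharacter G f) (hn : classInner f f = 2)
    (h1 : f 1 = 0) :
    ∃ a b : G → ℂ, IsIrrCharacter G a ∧ IsIrrCharacter G b ∧ a ≠ b ∧ f = a - b := by
  classical
  obtain ⟨a, b, ha, hb, hab, rfl⟩ := exists_pm_of_norm_two h hn
  have hpos : ∀ {c : G → ℂ}, IsIrrCharacter G c → 0 < (c 1).re := by
    intro c hc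
    rw [map_one_eq_charDegree (IsIrrCharacter.isCharacter hc)]
    simpa using charDegree_pos_of_irr hc
  have h2 : (a 1 + b 1).re = 0 := by
    have h3 : (a + b) 1 = a 1 + b 1 := rfl
    rw [← h3, h1]
    rfl
  rw [Complex.add_re] at h2
  rcases ha with ha | ha <;> rcases hb with hb | hb
  · have h3 := hpos ha
    have h4 := hpos hb
    linarith
  · refine ⟨a, -b, ha, hb, ?_, by simp [sub_eq_add_neg]⟩
    intro h3
    rw [h3, classInner_neg_left] at hab
    have h4 := classInner_irr_self hb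
    rw [classInner_neg_left, classInner_neg_right] at h4
    have h5 : classInner b b = 1 := by linear_combination h4
    rw [h5] at hab
    norm_num at hab
  · refine ⟨b, -a, hb, ha, ?_, by simp [sub_eq_add_neg, add_comm]⟩
    intro h3
    rw [h3, classInner_neg_right] at hab
    have h4 := classInner_irr_self ha
    rw [classInner_neg_left, classInner_neg_right] at h4
    have h5 : classInner a a = 1 := by linear_combination h4
    rw [h5] at hab
    norm_num at hab
  · have h3 := hpos ha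
    have h4 := hpos hb
    have e1 : (-a) 1 = - a 1 := rfl
    have e2 : (-b) 1 = - b 1 := rfl
    rw [e1, Complex.neg_re] at h3
    rw [e2, Complex.neg_re] at h4
    linarith

/-- Coherence for a set of at least two irreducible characters of the same degree. -/
theorem coh_same_deg_irr {S : Set (L → ℂ)} (hfin : S.Finite) (hirr : ∀ χ ∈ S, IsIrrCharacter L χ)
    (htwo : ∃ χ ∈ S, ∃ ψ ∈ S, χ ≠ ψ) (hdeg : ∀ φ ∈ S, ∀ ψ ∈ S, φ 1 = ψ 1)
    {τ : (L → ℂ) → (G → ℂ)} (hτ : IsLinearIsometryOn (zspanOn S {1}ᶜ) τ)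
    (hτ1 : ∀ α ∈ zspanOn S {1}ᶜ, τ α 1 = 0) : IsCoherent S {1}ᶜ τ := by
  classical
  obtain ⟨χ₀, hχ₀, χ₂, hχ₂, hne⟩ := htwo
  have hmemd : ∀ φ ∈ S, χ₀ - φ ∈ zspanOn S ({1}ᶜ : Set L) := by
    intro φ hφ
    refine mem_zspanOn_one.mpr ⟨zspan_sub (mem_zspan_of_mem hχ₀) (mem_zspan_of_mem hφ), ?_⟩
    simp [hdeg φ hφ χ₀ hχ₀]
  have hmemd' : ∀ φ ∈ S, φ - χ₀ ∈ zspanOn S ({1}ᶜ : Set L) := by
    intro φ hφ
    refine mem_zspanOn_one.mpr ⟨zspan_sub (mem_zspan_of_mem hφ) (mem_zspan_of_mem hχ₀), ?_⟩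
    simp [hdeg φ hφ χ₀ hχ₀]
  have hneg : ∀ φ ∈ S, τ (φ - χ₀) = - τ (χ₀ - φ) := by
    intro φ hφ
    have h1 := isometry_neg hτ (hmemd φ hφ)
    rw [neg_sub] at h1
    exact h1
  have hδ : ∀ φ ∈ S, ∀ φ' ∈ S, φ ≠ χ₀ → φ' ≠ χ₀ →
      classInner (χ₀ - φ) (χ₀ - φ') = 1 + if φ = φ' then 1 else 0 := by
    intro φ hφ φ' hφ' h1 h2
    rw [classInner_sub_left, classInner_sub_right, classInner_sub_right,
      inner_irr_ite (hirr _ hχ₀) (hirr _ hχ₀), inner_irr_ite (hirr _ hχ₀) (hirr _ hφ'),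
      inner_irr_ite (hirr _ hφ) (hirr _ hχ₀), inner_irr_ite (hirr _ hφ) (hirr _ hφ'),
      if_pos rfl, if_neg h2.symm, if_neg h1]
    ring
  have hform : ∀ φ ∈ S, φ ≠ χ₀ → ∃ a b : G → ℂ, IsIrrCharacter G a ∧ IsIrrCharacter G b ∧ a ≠ b ∧
      τ (χ₀ - φ) = a - b := by
    intro φ hφ h0
    refine exists_irr_sub (hτ.2.2.2 _ (hmemd φ hφ)) ?_ (hτ1 _ (hmemd φ hφ))
    rw [hτ.2.2.1 _ (hmemd φ hφ) _ (hmemd φ hφ), hδ φ hφ φ hφ h0 h0, if_pos rfl]
    norm_num
  obtain ⟨u, v, hu, hv, huv, huveq⟩ := hform χ₂ hχ₂ hne.symm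
  have hAB : ∀ φ ∈ S, φ ≠ χ₀ → φ ≠ χ₂ →
      (∃ a : G → ℂ, IsIrrCharacter G a ∧ a ≠ u ∧ a ≠ v ∧ τ (χ₀ - φ) = u - a) ∨
      (∃ b : G → ℂ, IsIrrCharacter G b ∧ b ≠ u ∧ b ≠ v ∧ τ (χ₀ - φ) = b - v) := by
    intro φ hφ h0 h2
    obtain ⟨ω, ω', hω, hω', hne', heq⟩ := hform φ hφ h0
    have h1 : classInner (u - v) (ω - ω') = 1 := by
      rw [← huveq, ← heq, hτ.2.2.1 _ (hmemd _ hχ₂) _ (hmemd _ hφ), hδ _ hχ₂ _ hφ hne.symm h0,
        if_neg h2.symm]
      ring
    rw [classInner_sub_left, classInner_sub_right, classInner_sub_right, inner_irr_ite hu hω,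
      inner_irr_ite hu hω', inner_irr_ite hv hω, inner_irr_ite hv hω'] at h1
    by_cases h3 : u = ω
    · subst h3
      rw [if_pos rfl, if_neg hne', if_neg huv.symm] at h1
      have h4 : v ≠ ω' := by
        intro h5
        rw [if_pos h5] at h1
        norm_num at h1
      exact Or.inl ⟨ω', hω', hne'.symm, h4.symm, heq⟩
    · rw [if_neg h3] at h1
      have h4 : v = ω' := by
        by_contra h5
        rw [if_neg h5] at h1
        split_ifs at h1 <;> norm_num at h1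
      subst h4
      refine Or.inr ⟨ω, hω, fun h5 => h3 h5.symm, hne', heq⟩
  have hcross : ∀ φ ∈ S, ∀ φ' ∈ S, φ ≠ χ₀ → φ' ≠ χ₀ → ∀ a b : G → ℂ, IsIrrCharacter G a →
      IsIrrCharacter G b → a ≠ v → b ≠ u → τ (χ₀ - φ) = u - a → τ (χ₀ - φ') = b - v → False := by
    intro φ hφ φ' hφ' h1 h2 a b ha hb hav hbu h3 h4
    have h5 := hτ.2.2.1 _ (hmemd _ hφ) _ (hmemd _ hφ')
    rw [h3, h4, hδ φ hφ φ' hφ' h1 h2, classInner_sub_left, classInner_sub_right, classInner_sub_right,
      inner_irr_ite hu hb, inner_irr_ite hu hv, inner_irr_ite ha hb, inner_irr_ite ha hv,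
      if_neg hbu.symm, if_neg huv, if_neg hav] at h5
    have h6 := congrArg Complex.re h5
    split_ifs at h6 <;> norm_num at h6
  obtain ⟨X₀, hXgen, hXnorm, hXin⟩ : ∃ X₀ : G → ℂ, IsGeneralizedCharacter G X₀ ∧ classInner X₀ X₀ = 1 ∧
      ∀ φ ∈ S, classInner (τ (φ - χ₀)) X₀ = classInner φ χ₀ - 1 := by
    by_cases hB : ∃ φ ∈ S, φ ≠ χ₀ ∧ φ ≠ χ₂ ∧
        ∃ b : G → ℂ, IsIrrCharacter G b ∧ b ≠ u ∧ b ≠ v ∧ τ (χ₀ - φ) = b - v
    · obtain ⟨φ', hφ', h1', h2', b', hb', hb'u, hb'v, hb'eq⟩ := hB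
      refine ⟨-v, IsGeneralizedCharacter.neg (IsGeneralizedCharacter.of_isCharacter
        (IsIrrCharacter.isCharacter hv)), ?_, ?_⟩
      · rw [classInner_neg_left, classInner_neg_right, classInner_irr_self hv]
        ring
      · intro φ hφ
        by_cases h0 : φ = χ₀
        · subst h0
          rw [sub_self, isometry_zero hτ zspanOn_zero, classInner_zero_left,
            classInner_irr_self (hirr _ hφ)]
          ring
        rw [classInner_irr_of_ne (hirr _ hφ) (hirr _ hχ₀) h0, hneg φ hφ]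
        by_cases h2 : φ = χ₂
        · subst h2
          rw [huveq, classInner_neg_left, classInner_neg_right, classInner_sub_left,
            classInner_irr_of_ne hu hv huv, classInner_irr_self hv]
          ring
        rcases hAB φ hφ h0 h2 with ⟨a, ha, hau, hav, haeq⟩ | ⟨b, hb, hbu, hbv, hbeq⟩
        · exact (hcross φ hφ φ' hφ' h0 h1' a b' ha hb' hav hb'u haeq hb'eq).elim
        · rw [hbeq, classInner_neg_left, classInner_neg_right, classInner_sub_left,
            classInner_irr_of_ne hb hv hbv, classInner_irr_self hv]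
          ring
    · push Not at hB
      refine ⟨u, IsGeneralizedCharacter.of_isCharacter (IsIrrCharacter.isCharacter hu),
        classInner_irr_self hu, ?_⟩
      intro φ hφ
      by_cases h0 : φ = χ₀
      · subst h0
        rw [sub_self, isometry_zero hτ zspanOn_zero, classInner_zero_left,
          classInner_irr_self (hirr _ hφ)]
        ring
      rw [classInner_irr_of_ne (hirr _ hφ) (hirr _ hχ₀) h0, hneg φ hφ]
      by_cases h2 : φ = χ₂
      · subst h2
        rw [huveq, classInner_neg_left, classInner_sub_left,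
          classInner_irr_self hu, classInner_irr_of_ne hv hu huv.symm]
        ring
      rcases hAB φ hφ h0 h2 with ⟨a, ha, hau, hav, haeq⟩ | ⟨b, hb, hbu, hbv, hbeq⟩
      · rw [haeq, classInner_neg_left, classInner_sub_left,
          classInner_irr_self hu, classInner_irr_of_ne ha hu hau]
        ring
      · exact (hB φ hφ h0 h2 b hb hbu hbv hbeq).elim
  obtain ⟨τ₁, h1, h2⟩ := coh_of_image hfin hirr hdeg hτ hχ₀ hXgen hXnorm hXin
  refine ⟨⟨χ₀ - χ₂, hmemd _ hχ₂, ?_⟩, τ₁, h1, h2⟩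
  intro h
  exact hne (sub_eq_zero.mp h)

end Main

end Cfsg.Agent.Lib.OddChar
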