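import Mathlib
import Cfsg.Agent.Lib.OddChar.CohSameDeg
import Cfsg.Agent.Lib.OddChar.SibleyCoh

/-!
# The Frobenius group with abelian kernel: characters nontrivial on the kernel.
-/

set_option autoImplicit false

open scoped ComplexConjugate commutatorElement

namespace Cfsg.Agent.Lib.OddChar

open Cfsg (classInner IsCharacter IsIrrCharacter IsClassFunction IsGeneralizedCharacter zspan zspanOn
  conjFun IsLinearIsometryOn IsCoherent IsCoherenceSystem IrrCharacter indFun extendByZero
  inducedIrrAbove charDegree IsTISubset)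
open Cfsg.Agent.Lib.Char Cfsg.Agent.Lib.Degree

universe u v

section Main

variable {L : Type u} [Group L] [Fintype L] {K : Subgroup L} [hK : K.Normal]

/-- For a Frobenius group, the set `S` consists exactly of the irreducible characters that are
nontrivial on the kernel. -/
theorem induced_eq_irr (hC : ∀ n ∈ K, n ≠ 1 → Subgroup.centralizer ({n} : Set L) ≤ K) :
    inducedIrrAbove K ⊥ = {χ | IsIrrCharacter L χ ∧ ∃ z ∈ K, χ z ≠ χ 1} := by
  classical
  letI : Fintype K := Fintype.ofFinite _
  have hirr : ∀ χ ∈ inducedIrrAbove K ⊥, IsIrrCharacter L χ := fun χ hχ => inducedIrrAbove_irr hC hχ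
  ext χ
  constructor
  · intro hχ
    have hχirr := hirr χ hχ
    refine ⟨hχirr, ?_⟩
    by_contra hcon
    push Not at hcon
    obtain ⟨θ, hθ, hne, -, rfl⟩ := hχ
    have h1 : classInner (fun k : K => indFun K θ k) θ ≠ 0 := by
      rw [← frobenius_reciprocity' K θ _ (IsCharacter.isClassFunction (IsIrrCharacter.isCharacter hχirr)),
        classInner_irr_self hχirr]
      exact one_ne_zero
    apply hne
    funext a
    have h2 := constituent_trivial hχirr K hθ h1 a (hcon a a.2)
    have h3 : ∀ b : K, θ b = θ 1 := fun b => constituent_trivial hχirr K hθ h1 b (hcon b b.2)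
    -- `θ` is constant, hence trivial by orthogonality
    by_contra hθ1
    have h4 : θ ≠ fun _ => (1 : ℂ) := hne
    have h5 := classInner_irr_of_ne hθ isIrrCharacter_one h4
    rw [classInner_def] at h5
    have h6 : ∑ g : K, θ g * conj (1 : ℂ) = (Nat.card K : ℂ) * θ 1 := by
      simp only [map_one, mul_one, h3, Finset.sum_const, Finset.card_univ, nsmul_eq_mul]
      rw [Nat.card_eq_fintype_card]
    rw [h6] at h5
    have h7 : (Nat.card K : ℂ) ≠ 0 := by exact_mod_cast (Nat.card_pos (α := K)).ne'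
    rw [← mul_assoc, inv_mul_cancel₀ h7, one_mul] at h5
    exact map_one_ne_zero_of_irr hθ h5
  · rintro ⟨hχ, z, hz, hzne⟩
    have hres : IsCharacter K (fun k : K => χ k) :=
      IsCharacter.restrict K (IsIrrCharacter.isCharacter hχ)
    have hne0 : (fun k : K => χ k) ≠ 0 := by
      intro h
      have h1 := congrFun h 1
      exact map_one_ne_zero_of_irr hχ h1
    obtain ⟨θ, hθ, hc⟩ := exists_constituent hres hne0
    have hc' : classInner (indFun K θ) χ ≠ 0 := by
      rw [frobenius_reciprocity K θ χ (IsCharacter.isClassFunction (IsIrrCharacter.isCharacter hχ))]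
      intro h
      apply hc
      rw [← conj_classInner, h, map_zero]
    have hθne : θ ≠ fun _ => 1 := by
      rintro rfl
      apply hzne
      refine constituent_trivial' (indFun_isCharacter K (IsIrrCharacter.isCharacter isIrrCharacter_one)) hχ hc' z ?_
      exact indFun_ker_eq (le_refl K) (fun _ _ => rfl) hz
    have hmemB : indFun K θ ∈ inducedIrrAbove K ⊥ :=
      ⟨θ, hθ, hθne, fun a ha => by
        have h1 : (a : L) = 1 := (Subgroup.mem_bot).mp ha
        have h2 : a = 1 := Subtype.ext h1
        rw [h2], rfl⟩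
    have heq : indFun K θ = χ := by
      by_contra hne
      exact hc' (classInner_irr_of_ne (hirr _ hmemB) hχ hne)
    rw [← heq]
    exact hmemB

/-- The degree of a member of `S` when the kernel is commutative. -/
theorem abelian_degree (hcomm : ∀ a b : K, a * b = b * a) {A : Subgroup L} {φ : L → ℂ}
    (hφ : φ ∈ inducedIrrAbove K A) : φ 1 = (K.index : ℂ) := by
  obtain ⟨θ, hθ, -, -, rfl⟩ := hφ
  have h1 := charDegree_eq_one_of_comm hcomm hθ
  rw [indFun_one, h1, mul_one]

/-- The sum of the squares of the degrees. -/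
theorem sum_degree_sq (hC : ∀ n ∈ K, n ≠ 1 → Subgroup.centralizer ({n} : Set L) ≤ K) :
    ∑ φ ∈ (inducedIrrAbove_finite (K := K) (⊥ : Subgroup L)).toFinset, ((charDegree φ : ℝ) ^ 2) =
      (K.index : ℝ) * ((Nat.card K : ℝ) - 1) := by
  classical
  letI : Fintype K := Fintype.ofFinite _
  have hSTirr : ∀ φ ∈ inducedIrrAbove K ⊥, IsIrrCharacter L φ := fun φ hφ => inducedIrrAbove_irr hC hφ
  have h1 := sum_weight (K := K) (⊥ : Subgroup L) (d := charDegree) (n := fun _ => 1)
    (fun φ hφ => map_one_eq_charDegree (IsIrrCharacter.isCharacter (hSTirr φ hφ)))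
    (fun φ hφ => by
      rw [classInner_irr_self (hSTirr φ hφ)]
      simp)
    (fun _ _ => one_pos)
  rw [Subgroup.relIndex_bot_left] at h1
  simpa using h1

/-- If the kernel is a commutative `p`-group of order `e + 1`, it is elementary abelian. -/
theorem elementary_of_card {p : ℕ} [Fact p.Prime] (hC : ∀ n ∈ K, n ≠ 1 → Subgroup.centralizer ({n} : Set L) ≤ K)
    (hcomm : ∀ a b : K, a * b = b * a) (hpg : IsPGroup p K) (hK1 : K ≠ ⊥)
    (hcard : Nat.card K = K.index + 1) (a : L) (ha : a ∈ K) : a ^ p = 1 := by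
  classical
  have hcomm' : ∀ a ∈ K, ∀ b ∈ K, a * b = b * a := fun a ha b hb => by
    have := hcomm ⟨a, ha⟩ ⟨b, hb⟩
    exact congrArg Subtype.val this
  let B : Subgroup L :=
    { carrier := {a | a ∈ K ∧ a ^ p = 1}
      mul_mem' := by
        rintro a b ⟨ha, ha'⟩ ⟨hb, hb'⟩
        refine ⟨K.mul_mem ha hb, ?_⟩
        rw [(show Commute a b from hcomm' a ha b hb).mul_pow, ha', hb', one_mul]
      one_mem' := ⟨K.one_mem, one_pow _⟩
      inv_mem' := by
        rintro a ⟨ha, ha'⟩
        refine ⟨K.inv_mem ha, ?_⟩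
        rw [inv_pow, ha', inv_one] }
  have hBmem : ∀ x, x ∈ B ↔ x ∈ K ∧ x ^ p = 1 := fun x => Iff.rfl
  haveI hBn : B.Normal := by
    refine ⟨fun n hn g => ?_⟩
    rw [hBmem] at hn ⊢
    refine ⟨hK.conj_mem n hn.1 g, ?_⟩
    rw [conj_pow, hn.2, mul_one, mul_inv_cancel]
  have hBK : B ≤ K := fun x hx => hx.1
  have hdvd := index_dvd_card_sub_one hC hBK
  have hKntriv : Nontrivial K := (Subgroup.nontrivial_iff_ne_bot K).mpr hK1
  obtain ⟨m, hm⟩ := IsPGroup.iff_card.mp hpg
  have hpdvd : p ∣ Nat.card K := by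
    rw [hm]
    refine dvd_pow_self _ ?_
    rintro rfl
    have h1 : Nat.card K = 1 := by rw [hm, pow_zero]
    have h2 := Finite.one_lt_card_iff_nontrivial.mpr hKntriv
    omega
  obtain ⟨t, ht⟩ := exists_prime_orderOf_dvd_card' (G := K) p hpdvd
  have htB : ((t : K) : L) ∈ B := by
    refine ⟨t.2, ?_⟩
    have h1 : t ^ p = 1 := by rw [← ht]; exact pow_orderOf_eq_one t
    exact congrArg Subtype.val h1
  have hBgt : 1 < Nat.card B := by
    refine Finite.one_lt_card_iff_nontrivial.mpr ?_
    refine (Subgroup.nontrivial_iff_ne_bot B).mpr fun h => ?_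
    rw [h, Subgroup.mem_bot] at htB
    have h1 : t = 1 := Subtype.ext htB
    rw [h1, orderOf_one] at ht
    exact (Fact.out : p.Prime).one_lt.ne ht.symm.symm
  have hple : K.index ≤ Nat.card B - 1 := Nat.le_of_dvd (by omega) hdvd
  have hBle : Nat.card B ≤ Nat.card K := Subgroup.card_le_of_le hBK
  have hBeq : B = K := Subgroup.eq_of_le_of_card_ge hBK (by omega)
  have h1 : a ∈ B := hBeq ▸ ha
  exact h1.2

end Main

end Cfsg.Agent.Lib.OddChar
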