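import Mathlib

/-!
# Frobenius groups given through a complement.
-/

set_option autoImplicit false

namespace Cfsg.Agent.Lib.OddChar

universe u

section Main

variable {L : Type u} [Group L] [Finite L] {K W : Subgroup L} [hK : K.Normal]

/-- Every element of a coset `k w` with `w` acting fixed point freely is `K`-conjugate to `w`. -/
theorem exists_conj_of_fpf {w : L} (hw : ∀ h ∈ K, w * h = h * w → h = 1) {k : L} (hk : k ∈ K) :
    ∃ h ∈ K, h⁻¹ * w * h = k * w := by
  classical
  let f : K → K := fun h => ⟨(h : L)⁻¹ * (w * (h : L) * w⁻¹), K.mul_mem (K.inv_mem h.2) (hK.conj_mem _ h.2 w)⟩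
  have hinj : Function.Injective f := by
    intro a b hab
    have h1 : (a : L)⁻¹ * (w * (a : L) * w⁻¹) = (b : L)⁻¹ * (w * (b : L) * w⁻¹) := congrArg Subtype.val hab
    have h2 : (b : L) * (a : L)⁻¹ * w = w * ((b : L) * (a : L)⁻¹) := by
      have h3 : (a : L)⁻¹ * w * (a : L) = (b : L)⁻¹ * w * (b : L) := by
        have h4 := congrArg (· * w) h1
        simpa [mul_assoc] using h4
      have h5 : w * (a : L) = (a : L) * ((b : L)⁻¹ * w * (b : L)) := by
        rw [← h3]
        group
      calc (b : L) * (a : L)⁻¹ * w = (b : L) * ((a : L)⁻¹ * w * (a : L)) * (a : L)⁻¹ := by group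
        _ = (b : L) * ((b : L)⁻¹ * w * (b : L)) * (a : L)⁻¹ := by rw [h3]
        _ = w * ((b : L) * (a : L)⁻¹) := by group
    have h6 := hw ((b : L) * (a : L)⁻¹) (K.mul_mem b.2 (K.inv_mem a.2)) h2.symm
    have h7 : (b : L) = (a : L) := by
      have := mul_inv_eq_one.mp h6
      exact this
    exact (Subtype.ext h7).symm
  have hsurj := (Finite.injective_iff_surjective.mp hinj) ⟨k, hk⟩
  obtain ⟨h, hh⟩ := hsurj
  refine ⟨h, h.2, ?_⟩
  have h1 : (h : L)⁻¹ * (w * (h : L) * w⁻¹) = k := congrArg Subtype.val hh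
  rw [← h1]
  group

/-- The centralizer property of a Frobenius group, from a complement acting fixed point freely. -/
theorem centralizers_of_complement (hsup : K ⊔ W = ⊤)
    (hfpf : ∀ w ∈ W, w ≠ 1 → ∀ h ∈ K, w * h = h * w → h = 1) :
    ∀ n ∈ K, n ≠ 1 → Subgroup.centralizer ({n} : Set L) ≤ K := by
  intro n hn hn1 x hx
  rw [Subgroup.mem_centralizer_singleton_iff] at hx
  have hxt : x ∈ K ⊔ W := by rw [hsup]; trivial
  rw [Subgroup.mem_sup_of_normal_left] at hxt
  obtain ⟨k, hk, w, hwW, rfl⟩ := hxt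
  by_cases hw1 : w = 1
  · rw [hw1, mul_one]
    exact hk
  exfalso
  obtain ⟨h, hh, hhw⟩ := exists_conj_of_fpf (K := K) (hfpf w hwW hw1) hk
  apply hn1
  have h1 : w * (h * n * h⁻¹) = (h * n * h⁻¹) * w := by
    have h2 : h⁻¹ * w * h * n = n * (h⁻¹ * w * h) := by
      rw [hhw]
      exact hx
    calc w * (h * n * h⁻¹) = h * (h⁻¹ * w * h * n) * h⁻¹ := by group
      _ = h * (n * (h⁻¹ * w * h)) * h⁻¹ := by rw [h2]
      _ = (h * n * h⁻¹) * w := by group
  have h3 := hfpf w hwW hw1 _ (hK.conj_mem n hn h) h1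
  have h4 : h * n = h := by
    have := mul_inv_eq_one.mp h3
    exact this
  exact left_eq_mul.mp h4.symm

end Main

end Cfsg.Agent.Lib.OddChar
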