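import Mathlib
import Cfsg.Agent.Lib.OddChar.TIFrob

/-!
# Partitions of a group by trivial-intersection subgroups: supports, counting and a parity lemma.
-/

set_option autoImplicit false

open scoped ComplexConjugate

namespace Cfsg.Agent.Lib.OddChar

open Cfsg (classInner IsCharacter IsIrrCharacter IsClassFunction IsGeneralizedCharacter zspan zspanOn
  conjFun IsLinearIsometryOn IsCoherent IsCoherenceSystem IrrCharacter indFun extendByZero
  inducedIrrAbove charDegree IsTISubset)
open Cfsg.Agent.Lib.Char Cfsg.Agent.Lib.Degree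

universe u v

section Supp

variable {G : Type v} [Group G] [Fintype G]

/-- `f` is supported on the nonidentity conjugates of elements of `H`. -/
def SuppOn (H : Subgroup G) (f : G → ℂ) : Prop := ∀ g, f g ≠ 0 → g ≠ 1 ∧ ∃ y : G, y⁻¹ * g * y ∈ H

theorem suppOn_indFun {H L : Subgroup G} (α : L → ℂ) (h1 : ∀ x : L, (x : G) ∉ H → α x = 0)
    (h2 : α 1 = 0) : SuppOn H (indFun L α) := by
  classical
  intro g hg
  rw [indFun_apply] at hg
  have hex : ∃ y, extendByZero L α (y⁻¹ * g * y) ≠ 0 := by
    by_contra hcon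
    push Not at hcon
    apply hg
    simp [hcon]
  obtain ⟨y, hy⟩ := hex
  have hyL : y⁻¹ * g * y ∈ L := by
    by_contra h
    exact hy (extendByZero_of_not_mem L α h)
  rw [extendByZero_of_mem L α hyL] at hy
  constructor
  · rintro rfl
    apply hy
    have h3 : (⟨y⁻¹ * 1 * y, hyL⟩ : L) = 1 := Subtype.ext (by simp)
    rw [h3, h2]
  · refine ⟨y, ?_⟩
    by_contra h
    exact hy (h1 _ h)

theorem orderOf_conj_inv (y g : G) : orderOf (y⁻¹ * g * y) = orderOf g := by
  have h1 := orderOf_injective (MulAut.conj y⁻¹).toMonoidHom (MulAut.conj y⁻¹).injective g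
  simpa using h1

/-- An element conjugate into both of two subgroups of coprime orders is trivial. -/
theorem eq_one_of_conj_mem {H H' : Subgroup G} (hcop : Nat.Coprime (Nat.card H) (Nat.card H'))
    {g y y' : G} (hy : y⁻¹ * g * y ∈ H) (hy' : y'⁻¹ * g * y' ∈ H') : g = 1 := by
  have h1 : orderOf g ∣ Nat.card H := by
    rw [← orderOf_conj_inv y g]
    exact Subgroup.orderOf_dvd_natCard H hy
  have h2 : orderOf g ∣ Nat.card H' := by
    rw [← orderOf_conj_inv y' g]
    exact Subgroup.orderOf_dvd_natCard H' hy'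
  exact orderOf_eq_one_iff.mp (Nat.eq_one_of_dvd_coprimes hcop h1 h2)

theorem inner_eq_zero_of_suppOn {H H' : Subgroup G} (hcop : Nat.Coprime (Nat.card H) (Nat.card H'))
    {f f' : G → ℂ} (hf : SuppOn H f) (hf' : SuppOn H' f') : classInner f f' = 0 := by
  classical
  rw [classInner_def]
  have h0 : ∀ g, f g * conj (f' g) = 0 := by
    intro g
    by_contra hne
    have h1 : f g ≠ 0 := left_ne_zero_of_mul hne
    have h2 : conj (f' g) ≠ 0 := right_ne_zero_of_mul hne
    have h3 : f' g ≠ 0 := fun h => h2 (by rw [h, map_zero])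
    obtain ⟨hg1, y, hy⟩ := hf g h1
    obtain ⟨-, y', hy'⟩ := hf' g h3
    exact hg1 (eq_one_of_conj_mem hcop hy hy')
  simp [h0]

end Supp

section Mask

variable {G : Type v} [Group G] [Fintype G]

open Classical in
/-- The indicator function of the nonidentity elements of `H`, as a function on `L`. -/
noncomputable def maskFun (H L : Subgroup G) : L → ℂ :=
  fun x => if (x : G) ∈ H ∧ (x : G) ≠ 1 then 1 else 0

theorem maskFun_isClass {H L : Subgroup G} (hHn : ∀ x ∈ L, ∀ h ∈ H, x * h * x⁻¹ ∈ H) :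
    IsClassFunction L (maskFun H L) := by
  classical
  intro a b
  simp only [maskFun]
  have hiff : ((b * a * b⁻¹ : L) : G) ∈ H ↔ (a : G) ∈ H := by
    constructor
    · intro h
      have h1 := hHn _ (L.inv_mem b.2) _ h
      have h2 : (b : G)⁻¹ * ((b * a * b⁻¹ : L) : G) * ((b : G)⁻¹)⁻¹ = a := by
        push_cast
        group
      rwa [h2] at h1
    · intro h
      have h1 := hHn _ b.2 _ h
      simpa using h1
  have hiff2 : ((b * a * b⁻¹ : L) : G) ≠ 1 ↔ (a : G) ≠ 1 := by
    constructor
    · intro h h1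
      apply h
      push_cast
      rw [h1]
      group
    · intro h h1
      apply h
      have h2 : ((b * a * b⁻¹ : L) : G) = (b : G) * a * (b : G)⁻¹ := by push_cast; rfl
      rw [h2] at h1
      have h3 : (b : G) * a = b := by
        have := mul_inv_eq_one.mp h1
        exact this
      exact left_eq_mul.mp h3.symm
  simp only [hiff, hiff2]

theorem indFun_mask_apply {H L : Subgroup G} (hHL : H ≤ L) (hHn : ∀ x ∈ L, ∀ h ∈ H, x * h * x⁻¹ ∈ H)
    (hti : ∀ g : G, g ∉ L → ∀ s ∈ H, g * s * g⁻¹ ∈ H → s = 1) {g y : G} (hg1 : g ≠ 1)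
    (hy : y⁻¹ * g * y ∈ H) : indFun L (maskFun H L) g = 1 := by
  classical
  have hcl := indFun_isClassFunction L (maskFun H L)
  have h1 : indFun L (maskFun H L) g = indFun L (maskFun H L) (y⁻¹ * g * y) := by
    have h2 := hcl g y⁻¹
    rw [inv_inv] at h2
    exact h2.symm
  rw [h1]
  have hyL := hHL hy
  have hne : y⁻¹ * g * y ≠ 1 := by
    intro h3
    apply hg1
    have h4 : g = y * (y⁻¹ * g * y) * y⁻¹ := by group
    rw [h4, h3]
    group
  have h5 := indFun_ti_apply L (H : Set G) hHL hti (maskFun H L) (maskFun_isClass hHn)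
    (fun x hx => by
      simp only [maskFun]
      rw [if_neg]
      exact fun h => hx h.1)
    ⟨y⁻¹ * g * y, hyL⟩ hy (fun h => hne (congrArg Subtype.val h))
  have h6 : indFun L (maskFun H L) (y⁻¹ * g * y) = maskFun H L ⟨y⁻¹ * g * y, hyL⟩ := h5
  rw [h6]
  simp only [maskFun]
  rw [if_pos ⟨hy, hne⟩]

/-- The partition identity. -/
theorem partition_identity {ι : Type*} [Fintype ι] (L H : ι → Subgroup G) [∀ i, Fintype (L i)]
    (hHL : ∀ i, H i ≤ L i) (hHn : ∀ i, ∀ x ∈ L i, ∀ h ∈ H i, x * h * x⁻¹ ∈ H i)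
    (hti : ∀ i, ∀ g : G, g ∉ L i → ∀ s ∈ H i, g * s * g⁻¹ ∈ H i → s = 1)
    (hcop : ∀ i j, i ≠ j → Nat.Coprime (Nat.card (H i)) (Nat.card (H j)))
    (hcover : ∀ g : G, g ≠ 1 → ∃ i, ∃ x : G, x * g * x⁻¹ ∈ H i)
    (f : G → ℂ) (hf : IsClassFunction G f) :
    (Nat.card G : ℂ)⁻¹ * ∑ g, f g = (Nat.card G : ℂ)⁻¹ * f 1 +
      ∑ i, (Nat.card (L i) : ℂ)⁻¹ * ∑ x : L i, maskFun (H i) (L i) x * f x := by
  classical
  have hsupp : ∀ i, SuppOn (H i) (indFun (L i) (maskFun (H i) (L i))) := fun i =>
    suppOn_indFun _ (fun x hx => by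
      simp only [maskFun]
      rw [if_neg]
      exact fun h => hx h.1) (by
      simp only [maskFun]
      rw [if_neg]
      exact fun h => h.2 rfl)
  have hsum : ∀ g, ∑ i, indFun (L i) (maskFun (H i) (L i)) g = if g = 1 then 0 else 1 := by
    intro g
    by_cases hg : g = 1
    · rw [if_pos hg]
      refine Finset.sum_eq_zero fun i _ => ?_
      by_contra hne
      exact (hsupp i g hne).1 hg
    · rw [if_neg hg]
      obtain ⟨i₀, x, hx⟩ := hcover g hg
      have hy : x⁻¹⁻¹ * g * x⁻¹ ∈ H i₀ := by simpa using hx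
      rw [Finset.sum_eq_single i₀]
      · exact indFun_mask_apply (hHL i₀) (hHn i₀) (hti i₀) hg hy
      · intro j _ hj
        by_contra hne
        obtain ⟨-, y', hy'⟩ := hsupp j g hne
        exact hg (eq_one_of_conj_mem (hcop j i₀ hj) hy' hy)
      · intro h
        exact absurd (Finset.mem_univ _) h
  have hfr : ∀ i, (Nat.card G : ℂ)⁻¹ * ∑ g, indFun (L i) (maskFun (H i) (L i)) g * f g =
      (Nat.card (L i) : ℂ)⁻¹ * ∑ x : L i, maskFun (H i) (L i) x * f x := by
    intro i
    have hcl : IsClassFunction G (conjFun f) := fun a b => by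
      simp only [conjFun]
      rw [hf a b]
    have h1 := frobenius_reciprocity (L i) (maskFun (H i) (L i)) (conjFun f) hcl
    simp only [classInner_def, conjFun, Complex.conj_conj] at h1
    exact h1
  have h2 : ∑ g, f g = f 1 + ∑ g, (∑ i, indFun (L i) (maskFun (H i) (L i)) g) * f g := by
    rw [← Finset.add_sum_erase _ _ (Finset.mem_univ (1 : G))]
    congr 1
    have h3 : ∑ g, (∑ i, indFun (L i) (maskFun (H i) (L i)) g) * f g =
        ∑ g ∈ (Finset.univ : Finset G).erase 1, (∑ i, indFun (L i) (maskFun (H i) (L i)) g) * f g := by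
      rw [← Finset.add_sum_erase _ _ (Finset.mem_univ (1 : G)), hsum 1, if_pos rfl, zero_mul, zero_add]
    rw [h3]
    refine Finset.sum_congr rfl fun g hg => ?_
    rw [hsum g, if_neg (Finset.ne_of_mem_erase hg), one_mul]
  rw [h2, mul_add]
  congr 1
  simp only [← hfr, Finset.sum_mul, Finset.mul_sum]
  rw [Finset.sum_comm]

end Mask

section Parity

variable {G : Type v} [Group G] [Fintype G]

/-- In a group of odd order, the inner product of two real generalized characters is congruent
modulo two to the product of their multiplicities of the principal character. -/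
theorem parity_real (hodd : Odd (Nat.card G)) {Φ Φ' : G → ℂ} (hΦ : IsGeneralizedCharacter G Φ)
    (hΦ' : IsGeneralizedCharacter G Φ') (hr : conjFun Φ = Φ) (hr' : conjFun Φ' = Φ') {a b : ℤ}
    (ha : classInner Φ (fun _ => 1) = a) (hb : classInner Φ' (fun _ => 1) = b) :
    ∃ m : ℤ, classInner Φ Φ' = m ∧ (2 : ℤ) ∣ m - a * b := by
  classical
  have hint : ∀ {f : G → ℂ}, IsGeneralizedCharacter G f → ∀ ω : IrrCharacter G,
      ∃ n : ℤ, classInner f (ω : G → ℂ) = n := fun {f} hf ω =>
    classInner_isGeneralized_int hf (IsGeneralizedCharacter.of_isCharacter (IsIrrCharacter.isCharacter ω.2))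
  choose c hc using hint hΦ
  choose c' hc' using hint hΦ'
  have hexp : Φ' = ∑ ω : IrrCharacter G, (c' ω : ℂ) • (ω : G → ℂ) := by
    have h1 := classFunction_eq_sum Φ' (IsGeneralizedCharacter.isClassFunction hΦ')
    refine h1.trans ?_
    refine Finset.sum_congr rfl fun ω _ => ?_
    rw [hc']
  have hval : classInner Φ Φ' = ((∑ ω : IrrCharacter G, c ω * c' ω : ℤ) : ℂ) := by
    conv_lhs => rw [hexp]
    rw [classInner_sum_right]
    push_cast
    refine Finset.sum_congr rfl fun ω _ => ?_
    rw [classInner_smul_right, hc, map_intCast]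
    ring
  let σ : IrrCharacter G → IrrCharacter G := fun ω => ⟨conjFun (ω : G → ℂ), isIrr_conjFun ω.2⟩
  have hσσ : ∀ ω, σ (σ ω) = ω := fun ω => Subtype.ext (conjFun_conjFun _)
  have hcσ : ∀ ω, c (σ ω) = c ω := by
    intro ω
    have h1 := classInner_conjFun Φ (ω : G → ℂ)
    have h0 : classInner Φ (conjFun (ω : G → ℂ)) = c (σ ω) := hc (σ ω)
    rw [hr, h0, hc, map_intCast] at h1
    exact_mod_cast h1
  have hc'σ : ∀ ω, c' (σ ω) = c' ω := by
    intro ω
    have h1 := classInner_conjFun Φ' (ω : G → ℂ)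
    have h0 : classInner Φ' (conjFun (ω : G → ℂ)) = c' (σ ω) := hc' (σ ω)
    rw [hr', h0, hc', map_intCast] at h1
    exact_mod_cast h1
  let one : IrrCharacter G := ⟨fun _ => 1, isIrrCharacter_one⟩
  have hfix : ∀ ω : IrrCharacter G, σ ω = ω → ω = one := by
    intro ω h
    apply Subtype.ext
    refine irr_eq_one_of_real_of_odd hodd ω.2 fun g => ?_
    have h1 := congrFun (congrArg Subtype.val h) g
    simp only [σ, conjFun] at h1
    exact Complex.conj_eq_iff_im.mp h1
  have hsplit : ∑ ω : IrrCharacter G, c ω * c' ω = c one * c' one +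
      ∑ ω ∈ (Finset.univ : Finset (IrrCharacter G)).erase one, c ω * c' ω :=
    (Finset.add_sum_erase _ _ (Finset.mem_univ one)).symm
  have heven : ((∑ ω ∈ (Finset.univ : Finset (IrrCharacter G)).erase one, c ω * c' ω : ℤ) : ZMod 2) = 0 := by
    push_cast
    refine Finset.sum_involution (fun ω _ => σ ω) ?_ ?_ ?_ ?_
    · intro ω _
      rw [hcσ, hc'σ]
      exact CharTwo.add_self_eq_zero _
    · intro ω hω _ h
      exact (Finset.ne_of_mem_erase hω) (hfix ω h)
    · intro ω hω
      refine Finset.mem_erase.mpr ⟨?_, Finset.mem_univ _⟩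
      intro h
      apply Finset.ne_of_mem_erase hω
      have h1 := hσσ ω
      rw [h] at h1
      have h2 : σ one = one := by
        apply Subtype.ext
        funext g
        simp [σ, one, conjFun]
      rw [h2] at h1
      exact h1.symm
    · intro ω _
      exact hσσ ω
  refine ⟨∑ ω : IrrCharacter G, c ω * c' ω, hval, ?_⟩
  have hca : c one = a := by
    have h1 := hc one
    have h2 : classInner Φ ((one : IrrCharacter G) : G → ℂ) = a := ha
    rw [h2] at h1
    exact_mod_cast h1.symm
  have hcb : c' one = b := by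
    have h1 := hc' one
    have h2 : classInner Φ' ((one : IrrCharacter G) : G → ℂ) = b := hb
    rw [h2] at h1
    exact_mod_cast h1.symm
  rw [hsplit, hca, hcb, add_sub_cancel_left]
  exact (ZMod.intCast_zmod_eq_zero_iff_dvd _ 2).mp (by exact_mod_cast heven)

end Parity

end Cfsg.Agent.Lib.OddChar
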