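import Mathlib
import Cfsg.Agent.Lib.OddChar.PartTI
import Cfsg.Agent.Lib.OddChar.FrobAbelian
import Cfsg.Agent.Lib.OddChar.SibleyGlue

/-!
# Class functions of a Frobenius group related to a nontrivial linear character of the kernel.
-/

set_option autoImplicit false

open scoped ComplexConjugate

namespace Cfsg.Agent.Lib.OddChar

open Cfsg (classInner IsCharacter IsIrrCharacter IsClassFunction IsGeneralizedCharacter zspan zspanOn
  conjFun IsLinearIsometryOn IsCoherent IsCoherenceSystem IrrCharacter indFun extendByZero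
  inducedIrrAbove charDegree IsTISubset)
open Cfsg.Agent.Lib.Char Cfsg.Agent.Lib.Degree

universe u v

section Rho

variable {L : Type u} [Group L] [Fintype L] {K : Subgroup L} [hK : K.Normal]

/-- The permutation character on the cosets of a normal subgroup. -/
noncomputable def rhoK (K : Subgroup L) : L → ℂ := indFun K (fun _ => 1)

theorem rhoK_of_mem {x : L} (hx : x ∈ K) : rhoK K x = (K.index : ℂ) := by
  classical
  rw [rhoK, indFun_apply]
  have h1 : ∀ y : L, extendByZero K (fun _ => (1 : ℂ)) (y⁻¹ * x * y) = 1 := by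
    intro y
    have h2 : y⁻¹ * x * y ∈ K := by
      have h3 := hK.conj_mem x hx y⁻¹
      simpa using h3
    rw [extendByZero_of_mem K _ h2]
  simp only [h1, Finset.sum_const, Finset.card_univ, nsmul_eq_mul, mul_one]
  rw [← Nat.card_eq_fintype_card, ← Subgroup.card_mul_index K]
  have h4 : (Nat.card K : ℂ) ≠ 0 := by exact_mod_cast (Nat.card_pos (α := K)).ne'
  push_cast
  rw [← mul_assoc, inv_mul_cancel₀ h4, one_mul]

theorem rhoK_of_not_mem {x : L} (hx : x ∉ K) : rhoK K x = 0 :=
  indFun_normal_of_not_mem hK _ hx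

theorem rhoK_conj : conjFun (rhoK K) = rhoK K := by
  funext x
  by_cases hx : x ∈ K
  · simp only [conjFun]
    rw [rhoK_of_mem hx, Complex.conj_natCast]
  · simp only [conjFun]
    rw [rhoK_of_not_mem hx, map_zero]

theorem rhoK_isCharacter : IsCharacter L (rhoK K) :=
  indFun_isCharacter K (IsIrrCharacter.isCharacter isIrrCharacter_one)

theorem rhoK_isClass : IsClassFunction L (rhoK K) := indFun_isClassFunction K _

omit hK in
theorem one_isClass : IsClassFunction L (fun _ => (1 : ℂ)) := fun _ _ => rfl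

/-- The inner product of a function induced from the normal subgroup with the permutation
character. -/
theorem inner_ind_rho [Fintype K] (θ : K → ℂ) :
    classInner (indFun K θ) (rhoK K) = (K.index : ℂ) * classInner θ (fun _ => (1 : ℂ)) := by
  classical
  rw [frobenius_reciprocity K θ _ rhoK_isClass]
  have h1 : (fun h : K => rhoK K (h : L)) = (K.index : ℂ) • (fun _ : K => (1 : ℂ)) := by
    funext h
    rw [rhoK_of_mem h.2]
    simp
  rw [h1, classInner_smul_right, Complex.conj_natCast]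

omit hK in
theorem inner_ind_one [Fintype K] (θ : K → ℂ) :
    classInner (indFun K θ) (fun _ => (1 : ℂ)) = classInner θ (fun _ => (1 : ℂ)) := by
  classical
  exact frobenius_reciprocity K θ _ one_isClass

theorem inner_rho_rho : classInner (rhoK K) (rhoK K) = (K.index : ℂ) := by
  classical
  letI : Fintype K := Fintype.ofFinite _
  have h := inner_ind_rho (K := K) (fun _ => (1 : ℂ))
  rw [classInner_irr_self isIrrCharacter_one, mul_one] at h
  exact h

theorem inner_rho_one : classInner (rhoK K) (fun _ => (1 : ℂ)) = 1 := by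
  classical
  letI : Fintype K := Fintype.ofFinite _
  rw [rhoK, inner_ind_one, classInner_irr_self isIrrCharacter_one]

/-- A nontrivial irreducible character: the induced function is orthogonal to the permutation
character and to the principal character. -/
theorem inner_chi_rho {θ : K → ℂ} (hθ : IsIrrCharacter K θ) (hne : θ ≠ fun _ => 1) :
    classInner (indFun K θ) (rhoK K) = 0 := by
  classical
  letI : Fintype K := Fintype.ofFinite _
  rw [inner_ind_rho, classInner_irr_of_ne hθ isIrrCharacter_one hne, mul_zero]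

omit hK in
theorem inner_chi_one {θ : K → ℂ} (hθ : IsIrrCharacter K θ) (hne : θ ≠ fun _ => 1) :
    classInner (indFun K θ) (fun _ => (1 : ℂ)) = 0 := by
  classical
  letI : Fintype K := Fintype.ofFinite _
  rw [inner_ind_one, classInner_irr_of_ne hθ isIrrCharacter_one hne]

/-- The function `β₀ = ρ - χ₀`. -/
theorem beta_norm {θ : K → ℂ} (hθ : IsIrrCharacter K θ) (hne : θ ≠ fun _ => 1)
    (hirr : IsIrrCharacter L (indFun K θ)) :
    classInner (rhoK K - indFun K θ) (rhoK K - indFun K θ) = (K.index : ℂ) + 1 := by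
  have h1 := inner_chi_rho hθ hne
  have h2 : classInner (rhoK K) (indFun K θ) = 0 := by
    rw [← conj_classInner, h1, map_zero]
  rw [classInner_sub_left, classInner_sub_right, classInner_sub_right, inner_rho_rho, h1, h2,
    classInner_irr_self hirr]
  ring

theorem beta_one {θ : K → ℂ} (hθ : IsIrrCharacter K θ) (hne : θ ≠ fun _ => 1) :
    classInner (rhoK K - indFun K θ) (fun _ => (1 : ℂ)) = 1 := by
  rw [classInner_sub_left, inner_rho_one, inner_chi_one hθ hne, sub_zero]

/-- The row lemma: a class function with multiplicities proportional to the degrees on `S` is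
constant on the nonidentity elements of the kernel. -/
theorem row_const {ξ : L → ℂ} (hξ : IsClassFunction L ξ) (k : ℂ)
    (h : ∀ θ : K → ℂ, IsIrrCharacter K θ → θ ≠ (fun _ => 1) → classInner ξ (indFun K θ) = k * θ 1)
    {x : L} (hx : x ∈ K) (hx1 : x ≠ 1) : ξ x = ξ 1 - k * Nat.card K := by
  classical
  letI : Fintype K := Fintype.ofFinite _
  have hres : IsClassFunction K (fun u : K => ξ u) := fun g y => hξ _ _
  have h1 := const_of_mult (K := K) hres Set.univ k (fun θ hθ hnt => by
    rw [← frobenius_reciprocity' K θ ξ hξ]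
    refine h θ hθ ?_
    rintro rfl
    exact hnt fun _ _ => rfl) (Set.mem_univ (⟨x, hx⟩ : K)) (fun h2 => hx1 (congrArg Subtype.val h2))
  exact h1

end Rho

section Beta

variable {L : Type u} [Group L] [Fintype L] {K : Subgroup L} [hK : K.Normal]

theorem zspan_finset_sum {X : Type*} {S : Set (X → ℂ)} {ι : Type*} (s : Finset ι) (a : ι → ℤ)
    (f : ι → X → ℂ) (h : ∀ i ∈ s, f i ∈ zspan S) : ∑ i ∈ s, a i • f i ∈ zspan S := by
  classical
  induction s using Finset.induction_on with
  | empty => simpa using zspan_zero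
  | insert i s hi ih =>
    rw [Finset.sum_insert hi]
    exact zspan_add (zspan_smul _ (h i (Finset.mem_insert_self _ _)))
      (ih fun j hj => h j (Finset.mem_insert_of_mem hj))

/-- The element `β` of `ℤ[S]`, proportional to the difference of the regular characters. -/
theorem exists_beta (hC : ∀ n ∈ K, n ≠ 1 → Subgroup.centralizer ({n} : Set L) ≤ K) {n : ℕ}
    (hn : Nat.card K = 1 + n * K.index) :
    ∃ β ∈ zspan (inducedIrrAbove K ⊥), classInner β β = (n : ℂ) ∧ β 1 = (n : ℂ) * K.index := by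
  classical
  letI : Fintype K := Fintype.ofFinite _
  set e := K.index with he
  have hepos : 0 < e := Nat.pos_of_ne_zero Subgroup.index_ne_zero_of_finite
  set s := (inducedIrrAbove_finite (K := K) (⊥ : Subgroup L)).toFinset with hs
  have hmem : ∀ φ, φ ∈ s ↔ φ ∈ inducedIrrAbove K ⊥ := fun φ => by simp [hs]
  have hirr : ∀ φ ∈ s, IsIrrCharacter L φ := fun φ hφ =>
    inducedIrrAbove_irr hC ((hmem φ).mp hφ)
  have hdvd : ∀ φ ∈ s, ∃ a : ℕ, charDegree φ = e * a := by
    intro φ hφ
    obtain ⟨θ, hθ, -, -, rfl⟩ := (hmem φ).mp hφ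
    refine ⟨charDegree θ, ?_⟩
    have h1 := map_one_eq_charDegree (IsIrrCharacter.isCharacter (hirr _ hφ))
    rw [indFun_one, map_one_eq_charDegree (IsIrrCharacter.isCharacter hθ)] at h1
    exact_mod_cast h1.symm
  let a : (L → ℂ) → ℕ := fun φ => charDegree φ / e
  have ha : ∀ φ ∈ s, charDegree φ = e * a φ := by
    intro φ hφ
    obtain ⟨b, hb⟩ := hdvd φ hφ
    simp only [a]
    rw [hb, Nat.mul_div_cancel_left _ hepos]
  have hsum : ∑ φ ∈ s, ((a φ : ℝ) ^ 2) = n := by
    have h1 := sum_degree_sq hC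
    rw [← hs, hn] at h1
    have h2 : ∑ φ ∈ s, ((charDegree φ : ℝ) ^ 2) = (e : ℝ) ^ 2 * ∑ φ ∈ s, ((a φ : ℝ) ^ 2) := by
      rw [Finset.mul_sum]
      refine Finset.sum_congr rfl fun φ hφ => ?_
      rw [ha φ hφ]
      push_cast
      ring
    rw [h2] at h1
    have he0 : (e : ℝ) ≠ 0 := by exact_mod_cast hepos.ne'
    have h3 : (e : ℝ) ^ 2 * ∑ φ ∈ s, ((a φ : ℝ) ^ 2) = (e : ℝ) ^ 2 * n := by
      rw [h1]
      push_cast
      ring
    exact mul_left_cancel₀ (pow_ne_zero 2 he0) h3
  refine ⟨∑ φ ∈ s, ((a φ : ℕ) : ℤ) • φ, zspan_finset_sum _ _ _ fun φ hφ =>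
    mem_zspan_of_mem ((hmem φ).mp hφ), ?_, ?_⟩
  · have hsmul : ∀ φ : L → ℂ, ((a φ : ℕ) : ℤ) • φ = ((a φ : ℕ) : ℂ) • φ := fun φ => by
      funext x
      simp
    simp only [hsmul]
    rw [classInner_sum_left]
    have h1 : ∀ φ ∈ s, classInner (((a φ : ℕ) : ℂ) • φ) (∑ ψ ∈ s, ((a ψ : ℕ) : ℂ) • ψ) =
        ((a φ : ℂ)) ^ 2 := by
      intro φ hφ
      rw [classInner_smul_left, classInner_sum_right, Finset.sum_eq_single φ]
      · rw [classInner_smul_right, classInner_irr_self (hirr φ hφ), Complex.conj_natCast]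
        ring
      · intro ψ hψ hne
        rw [classInner_smul_right, classInner_irr_of_ne (hirr φ hφ) (hirr ψ hψ) hne.symm, mul_zero]
      · intro h
        exact absurd hφ h
    rw [Finset.sum_congr rfl h1]
    have h2 : (∑ φ ∈ s, ((a φ : ℂ)) ^ 2) = ((∑ φ ∈ s, ((a φ : ℝ) ^ 2) : ℝ) : ℂ) := by
      push_cast
      rfl
    rw [h2, hsum]
    simp
  · rw [Finset.sum_apply]
    have h1 : ∀ φ ∈ s, (((a φ : ℕ) : ℤ) • φ) 1 = (e : ℂ) * ((a φ : ℂ)) ^ 2 := by
      intro φ hφ
      have h2 := map_one_eq_charDegree (IsIrrCharacter.isCharacter (hirr φ hφ))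
      simp only [Pi.smul_apply, zsmul_eq_mul, Int.cast_natCast]
      rw [h2, ha φ hφ]
      push_cast
      ring
    rw [Finset.sum_congr rfl h1, ← Finset.mul_sum]
    have h2 : (∑ φ ∈ s, ((a φ : ℂ)) ^ 2) = ((∑ φ ∈ s, ((a φ : ℝ) ^ 2) : ℝ) : ℂ) := by
      push_cast
      rfl
    rw [h2, hsum]
    push_cast
    ring

end Beta

section Numeric

variable {G : Type v} [Group G] [Fintype G]

open Classical in
/-- The real indicator function of the nonidentity elements of `H`, as a function on `L`. -/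
noncomputable def maskR (H L : Subgroup G) : L → ℝ :=
  fun x => if (x : G) ∈ H ∧ (x : G) ≠ 1 then 1 else 0

theorem maskFun_eq (H L : Subgroup G) (x : L) : maskFun H L x = ((maskR H L x : ℝ) : ℂ) := by
  classical
  simp only [maskFun, maskR]
  split_ifs <;> simp

variable {H L : Subgroup G} [Fintype L]

theorem sum_mask_mul (f : L → ℝ) (hf : ∀ x : L, (x : G) ∉ H → f x = 0) :
    ∑ x : L, maskR H L x * f x = ∑ x : L, f x - f 1 := by
  classical
  have h1 : ∀ x : L, maskR H L x * f x = f x - if x = 1 then f 1 else 0 := by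
    intro x
    simp only [maskR]
    by_cases hx : x = 1
    · subst hx
      simp
    · have hx' : (x : G) ≠ 1 := fun h => hx (Subtype.ext h)
      rw [if_neg hx]
      by_cases hxH : (x : G) ∈ H
      · rw [if_pos ⟨hxH, hx'⟩]
        ring
      · rw [if_neg (fun h => hxH h.1), hf x hxH]
        ring
  simp only [h1]
  rw [Finset.sum_sub_distrib, Finset.sum_ite_eq']
  simp

theorem sum_mask_one (hHL : H ≤ L) : ∑ x : L, maskR H L x = (Nat.card H : ℝ) - 1 := by
  classical
  have h1 := sum_mask_mul (H := H) (L := L) (fun x => if (x : G) ∈ H then (1 : ℝ) else 0)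
    (fun x hx => if_neg hx)
  have h2 : ∀ x : L, maskR H L x * (if (x : G) ∈ H then (1 : ℝ) else 0) = maskR H L x := by
    intro x
    simp only [maskR]
    by_cases hxH : (x : G) ∈ H
    · rw [if_pos hxH, mul_one]
    · rw [if_neg (fun h => hxH h.1)]
      simp [hxH]
  simp only [h2] at h1
  rw [h1]
  have h3 : ∑ x : L, (if (x : G) ∈ H then (1 : ℝ) else 0) = (Nat.card H : ℝ) := by
    rw [Finset.sum_boole]
    have h4 : Nat.card H = (Finset.univ.filter fun x : L => (x : G) ∈ H).card := by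
      rw [← Nat.card_congr (Subgroup.subgroupOfEquivOfLe hHL).toEquiv, Nat.card_eq_fintype_card,
        Fintype.card_subtype]
      congr 1
    rw [h4]
  rw [h3]
  have h5 : ((1 : L) : G) ∈ H := H.one_mem
  simp [h5]

/-- The numerical part of the lower bound for the sum over the kernel. -/
theorem row_self_numeric (hHL : H ≤ L) {χ₀ f : L → ℂ} (hvan : ∀ x : L, (x : G) ∉ H → χ₀ x = 0)
    (hsum : ∑ x : L, χ₀ x = 0) (hnorm : ∑ x : L, ‖χ₀ x‖ ^ 2 = (Nat.card L : ℝ)) {e n : ℕ}
    (hone : χ₀ 1 = (e : ℂ)) {ε : ℝ} (hε : ε = 1 ∨ ε = -1) {κ : ℤ}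
    (hf : ∀ x : L, (x : G) ∈ H → (x : G) ≠ 1 → f x = (κ : ℂ) + (ε : ℂ) * χ₀ x)
    (hL : Nat.card L = Nat.card H * e) (hH : Nat.card H = 1 + n * e) (hn : 2 ≤ n) (he : 0 < e) :
    1 - (e : ℝ) / (Nat.card H : ℝ) ≤ (Nat.card L : ℝ)⁻¹ * ∑ x : L, maskR H L x * ‖f x‖ ^ 2 := by
  classical
  have hε2 : ε ^ 2 = 1 := by
    rcases hε with rfl | rfl <;> norm_num
  have hterm : ∀ x : L, maskR H L x * ‖f x‖ ^ 2 =
      (κ : ℝ) ^ 2 * maskR H L x + 2 * κ * ε * (maskR H L x * (χ₀ x).re) +
        maskR H L x * ‖χ₀ x‖ ^ 2 := by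
    intro x
    simp only [maskR]
    by_cases hx : (x : G) ∈ H ∧ (x : G) ≠ 1
    · rw [if_pos hx, hf x hx.1 hx.2]
      simp only [one_mul]
      rw [Complex.sq_norm, Complex.sq_norm, Complex.normSq_apply, Complex.normSq_apply]
      simp only [Complex.add_re, Complex.add_im, Complex.mul_re, Complex.mul_im, Complex.intCast_re,
        Complex.intCast_im, Complex.ofReal_re, Complex.ofReal_im]
      have h1 : ε * ε = 1 := by rw [← pow_two, hε2]
      have h2 : ((χ₀ x).re * ε) * ((χ₀ x).re * ε) = (χ₀ x).re * (χ₀ x).re := by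
        calc ((χ₀ x).re * ε) * ((χ₀ x).re * ε) = (ε * ε) * ((χ₀ x).re * (χ₀ x).re) := by ring
          _ = _ := by rw [h1, one_mul]
      have h3 : ((χ₀ x).im * ε) * ((χ₀ x).im * ε) = (χ₀ x).im * (χ₀ x).im := by
        calc ((χ₀ x).im * ε) * ((χ₀ x).im * ε) = (ε * ε) * ((χ₀ x).im * (χ₀ x).im) := by ring
          _ = _ := by rw [h1, one_mul]
      simp only [zero_mul, sub_zero, add_zero, zero_add, mul_zero]
      nlinarith [h1, h2, h3]
    · rw [if_neg hx]
      ring
  have hS : ∑ x : L, maskR H L x * ‖f x‖ ^ 2 =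
      (κ : ℝ) ^ 2 * ((Nat.card H : ℝ) - 1) + 2 * κ * ε * (- (e : ℝ)) +
        ((Nat.card L : ℝ) - (e : ℝ) ^ 2) := by
    simp only [hterm]
    rw [Finset.sum_add_distrib, Finset.sum_add_distrib, ← Finset.mul_sum, ← Finset.mul_sum,
      sum_mask_one hHL]
    have h1 := sum_mask_mul (H := H) (L := L) (fun x => (χ₀ x).re)
      (fun x hx => by simp [hvan x hx])
    have h2 := sum_mask_mul (H := H) (L := L) (fun x => ‖χ₀ x‖ ^ 2)
      (fun x hx => by simp [hvan x hx])
    rw [h1, h2, hnorm, hone]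
    have h3 : ∑ x : L, (χ₀ x).re = 0 := by
      have h4 := congrArg Complex.re hsum
      simpa using h4
    rw [h3]
    simp
  rw [hS]
  have hepos : (0 : ℝ) < e := by exact_mod_cast he
  have hHcast : (Nat.card H : ℝ) = 1 + n * e := by exact_mod_cast hH
  have hLcast : (Nat.card L : ℝ) = (Nat.card H : ℝ) * e := by exact_mod_cast hL
  have hHpos : (0 : ℝ) < Nat.card H := by
    rw [hHcast]
    positivity
  rw [hLcast, hHcast]
  have hn' : (2 : ℝ) ≤ n := by exact_mod_cast hn
  have hκ : 2 * (κ : ℝ) * ε ≤ n * (κ : ℝ) ^ 2 := by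
    have h1 : 2 * κ * (if ε = 1 then (1 : ℤ) else -1) ≤ 2 * κ ^ 2 := by
      split_ifs <;> nlinarith [sq_nonneg (κ - 1), sq_nonneg (κ + 1), sq_nonneg κ]
    have h2 : (2 : ℝ) * (κ : ℝ) * ε ≤ 2 * (κ : ℝ) ^ 2 := by
      rcases hε with rfl | rfl
      · simp only [if_true] at h1
        have : (2 : ℤ) * κ * 1 ≤ 2 * κ ^ 2 := h1
        have h3 : ((2 * κ * 1 : ℤ) : ℝ) ≤ ((2 * κ ^ 2 : ℤ) : ℝ) := by exact_mod_cast this
        push_cast at h3
        linarith
      · have h3 : (2 : ℤ) * κ * (-1) ≤ 2 * κ ^ 2 := by nlinarith [sq_nonneg (κ + 1), sq_nonneg κ]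
        have h4 : ((2 * κ * (-1) : ℤ) : ℝ) ≤ ((2 * κ ^ 2 : ℤ) : ℝ) := by exact_mod_cast h3
        push_cast at h4
        linarith
    have h5 : 2 * (κ : ℝ) ^ 2 ≤ n * (κ : ℝ) ^ 2 := by
      exact mul_le_mul_of_nonneg_right hn' (sq_nonneg _)
    linarith
  have hH0 : (0 : ℝ) < 1 + n * e := by positivity
  have hgoal : (1 + (n : ℝ) * e) * e * (1 - e / (1 + n * e)) ≤
      (κ : ℝ) ^ 2 * (1 + n * e - 1) + 2 * κ * ε * (- (e : ℝ)) +
        ((1 + n * e) * e - (e : ℝ) ^ 2) := by
    have h1 : (1 + (n : ℝ) * e) * e * (1 - e / (1 + n * e)) = (1 + n * e) * e - (e : ℝ) ^ 2 := by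
      field_simp
    rw [h1]
    have h2 : 0 ≤ (e : ℝ) * (n * (κ : ℝ) ^ 2 - 2 * κ * ε) :=
      mul_nonneg hepos.le (by linarith)
    nlinarith
  have hpos : (0 : ℝ) < (1 + n * e) * e := by positivity
  rw [← div_eq_inv_mul, le_div_iff₀ hpos]
  linarith

end Numeric

end Cfsg.Agent.Lib.OddChar
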