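import Mathlib
import Cfsg.Agent.Lib.OddChar.PairChar
import Cfsg.Agent.Lib.FrobThm.FixedPointFree
import Cfsg.Agent.S1524
import Cfsg.Agent.S1529

/-!
# The data attached to a Frobenius subgroup with a trivial-intersection kernel in a group of odd
order.
-/

set_option autoImplicit false

open scoped ComplexConjugate

namespace Cfsg.Agent.Lib.OddChar

open Cfsg (classInner IsCharacter IsIrrCharacter IsClassFunction IsGeneralizedCharacter zspan zspanOn
  conjFun IsLinearIsometryOn IsCoherent IsCoherenceSystem IrrCharacter indFun extendByZero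
  inducedIrrAbove charDegree IsTISubset)
open Cfsg.Agent.Lib.Char Cfsg.Agent.Lib.Degree

universe u v

/-- The data attached to a Frobenius subgroup with a trivial-intersection kernel, at the level of
the class functions of the whole group. -/
structure PairData {G : Type v} [Group G] [Fintype G] (H L : Subgroup G) [Fintype L]
    (Gen : Set (G → ℂ)) (ψ Φ v : G → ℂ) (ε : ℂ) (e n : ℕ) : Prop where
  card_H : Nat.card H = 1 + n * e
  card_L : Nat.card L = Nat.card H * e
  two_le : 2 ≤ n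
  three_le : 3 ≤ e
  gen_pm : ∀ w ∈ Gen, PM G w
  gen_conj : ∀ w ∈ Gen, conjFun w ∈ Gen
  gen_ne : ∀ w ∈ Gen, conjFun w ≠ w
  gen_one : ∀ w ∈ Gen, classInner w (fun _ => 1) = 0
  gen_supp : ∀ w ∈ Gen, SuppOn H (w - conjFun w)
  mem : ψ ∈ Gen
  eps : ε = 1 ∨ ε = -1
  irr : IsIrrCharacter G (ε • ψ)
  pi_gen : IsGeneralizedCharacter G Φ
  pi_real : Φ - conjFun Φ = conjFun ψ - ψ
  pi_norm : classInner Φ Φ = (e : ℂ) + 1
  pi_one : classInner Φ (fun _ => 1) = 1
  pi_supp : SuppOn H Φ
  v_mem : v ∈ zspan Gen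
  v_norm : classInner v v = (n : ℂ)
  v_supp : SuppOn H (v - (n : ℂ) • ψ)
  row_other : ∀ ξ : G → ℂ, IsClassFunction G ξ → (∀ w ∈ Gen, classInner ξ w = 0) →
    ∀ x ∈ H, x ≠ 1 → ξ x = classInner ξ Φ
  row_self : 1 - (e : ℝ) / (Nat.card H : ℝ) ≤
    (Nat.card L : ℝ)⁻¹ * ∑ x : L, maskR H L x * ‖(ε • ψ) x‖ ^ 2

section Coh

variable {G : Type v} [Group G] [Fintype G]

/-- Coherence for a trivial-intersection Frobenius kernel: the form with the centralizer
hypothesis. -/
theorem coh_ti_frob (H L : Subgroup G) [Fintype L] (hodd : Odd (Nat.card L)) (hHL : H ≤ L)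
    (hH1 : H ≠ ⊥) (hnil : Group.IsNilpotent H) [hKn : (H.subgroupOf L).Normal]
    (hKL : H.subgroupOf L < ⊤)
    (hC : ∀ n ∈ H.subgroupOf L, n ≠ 1 → Subgroup.centralizer ({n} : Set L) ≤ H.subgroupOf L)
    (hTI : IsTISubset (H : Set G)) (hN : Subgroup.normalizer (H : Set G) = L) :
    IsCoherent (inducedIrrAbove (H.subgroupOf L) ⊥) {1}ᶜ (fun α : L → ℂ => indFun L α) := by
  classical
  set K := H.subgroupOf L with hK
  letI : Fintype K := Fintype.ofFinite _
  have hKmem : ∀ x : L, x ∈ K ↔ (x : G) ∈ H := fun x => Subgroup.mem_subgroupOf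
  have hti : ∀ g : G, g ∉ L → ∀ s ∈ H, g * s * g⁻¹ ∈ H → s = 1 := by
    rw [← hN]
    exact hTI
  obtain ⟨R, hS⟩ := exists_system hHL hti hodd hH1 hC
  have hKcard : Nat.card K = Nat.card H := Nat.card_congr (Subgroup.subgroupOfEquivOfLe hHL).toEquiv
  have hnilK : Group.IsNilpotent K := by
    have e : K ≃* H := Subgroup.subgroupOfEquivOfLe hHL
    exact (Group.isNilpotent_congr e).mpr hnil
  have hK1 : K ≠ ⊥ := by
    intro h
    apply hH1
    rw [eq_bot_iff]
    intro x hx
    have h1 : (⟨x, hHL hx⟩ : L) ∈ K := (hKmem _).mpr hx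
    rw [h, Subgroup.mem_bot] at h1
    exact Subgroup.mem_bot.mpr (congrArg Subtype.val h1)
  by_cases hpp : ∃ p m : ℕ, p.Prime ∧ Nat.card K = p ^ m
  · obtain ⟨p, m, hp, hm⟩ := hpp
    haveI : Fact p.Prime := ⟨hp⟩
    have hHp : IsPGroup p H := IsPGroup.of_card (n := m) (by rw [← hKcard, hm])
    obtain ⟨Q, hQ⟩ := hHp.exists_le_sylow
    have hHQ := Cfsg.Agent.S1524.sylow_eq H L hHL hN hH1 hHp (coprime_of_centralizers hC) Q hQ
    subst hHQ
    exact sibley_coherent Q hTI (by rw [hN]; exact hodd) hN.symm rfl hH1 hC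
  · have hnil' : Group.IsNilpotent (↥K ⧸ (⊥ : Subgroup L).subgroupOf K) :=
      Group.nilpotent_of_surjective (QuotientGroup.mk' _) (QuotientGroup.mk'_surjective _)
    have hsolv : Group.IsSolvable K := inferInstance
    have hH₁K : ⁅K, K⁆ < K := commutator_lt_of_solvable hsolv hK1
    exact coh_frob hsolv hS hodd ⊥ bot_le hnil' ⁅K, K⁆ (by simp) hH₁K hKL
      (fun k hk hk2 x hx => frob_mod_commutator hC hk hk2 hx)
      (Or.inr (Or.inr (Or.inl (by
        rintro ⟨p, m, hp, hm⟩
        rw [Subgroup.relIndex_bot_left] at hm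
        exact hpp ⟨p, m, hp, hm⟩))))

/-- A proper Frobenius kernel is nilpotent. -/
theorem kernel_nilpotent {L : Type u} [Group L] [Finite L] {K : Subgroup L} [hK : K.Normal]
    (hKL : K < ⊤) (hC : ∀ n ∈ K, n ≠ 1 → Subgroup.centralizer ({n} : Set L) ≤ K) :
    Group.IsNilpotent K := by
  classical
  have hcop := by
    letI : Fintype L := Fintype.ofFinite _
    exact coprime_of_centralizers hC
  have hidx : K.index ≠ 1 := fun h => hKL.ne (Subgroup.index_eq_one.mp h)
  obtain ⟨p, hp, hpd⟩ := Nat.exists_prime_and_dvd hidx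
  haveI : Fact p.Prime := ⟨hp⟩
  obtain ⟨y, hy⟩ := exists_prime_orderOf_dvd_card' (G := L) p (hpd.trans (Subgroup.index_dvd_card K))
  have hyK : y ∉ K := by
    intro h
    have h1 : orderOf (⟨y, h⟩ : K) = p := by
      rw [Subgroup.orderOf_mk]
      exact hy
    have h2 : p ∣ Nat.card K := by
      rw [← h1]
      exact orderOf_dvd_natCard _
    exact hp.one_lt.ne' (Nat.eq_one_of_dvd_coprimes hcop h2 hpd)
  refine Cfsg.Agent.Lib.FrobThm.fpf_nilpotent hp (MulAut.conjNormal y) ?_ ?_
  · intro x hx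
    by_contra hne
    have h1 : (x : L) ≠ 1 := fun h => hne (Subtype.ext h)
    apply hyK
    refine hC _ x.2 h1 (Subgroup.mem_centralizer_singleton_iff.mpr ?_)
    have h2 : ((MulAut.conjNormal y x : K) : L) = y * x * y⁻¹ := MulAut.conjNormal_apply y x
    rw [hx] at h2
    have h3 : (x : L) * y = y * x := by
      calc (x : L) * y = (y * x * y⁻¹) * y := by rw [← h2]
        _ = y * x := by group
    exact h3.symm
  · intro x
    have h1 : ∀ j : ℕ, (((MulAut.conjNormal y)^[j] x : K) : L) = y ^ j * x * (y ^ j)⁻¹ := by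
      intro j
      induction j with
      | zero => simp
      | succ j ih =>
        rw [Function.iterate_succ_apply']
        have h2 := MulAut.conjNormal_apply y ((MulAut.conjNormal y)^[j] x)
        rw [h2, ih]
        group
    apply Subtype.ext
    rw [h1, ← hy, pow_orderOf_eq_one]
    simp

end Coh

section Helpers

variable {G : Type v} [Group G] [Fintype G]

/-- The relation between two irreducible characters. -/
theorem conj_of_irr_relation {a b : G → ℂ} (ha : IsIrrCharacter G a) (hb : IsIrrCharacter G b)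
    (hab : a ≠ b) (h : a + conjFun a = b + conjFun b) : conjFun a = b := by
  classical
  by_contra hne
  have h1 := congrArg (fun f => classInner f b) h
  simp only [classInner_add_left] at h1
  rw [classInner_irr_of_ne ha hb hab, classInner_irr_of_ne (isIrr_conjFun ha) hb hne,
    classInner_irr_self hb, zero_add] at h1
  by_cases h2 : conjFun b = b
  · rw [h2, classInner_irr_self hb] at h1
    norm_num at h1
  · rw [classInner_irr_of_ne (isIrr_conjFun hb) hb h2] at h1
    norm_num at h1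

theorem conjFun_indFun_sub (L : Subgroup G) (θ : L → ℂ) :
    conjFun (indFun L θ) = indFun L (conjFun θ) := by
  classical
  funext y
  simp only [conjFun, indFun_apply, map_mul, map_inv₀, Complex.conj_natCast, map_sum]
  congr 1
  refine Finset.sum_congr rfl fun x _ => ?_
  by_cases hx : x⁻¹ * y * x ∈ L
  · rw [extendByZero_of_mem L _ hx, extendByZero_of_mem L _ hx]
    rfl
  · rw [extendByZero_of_not_mem L _ hx, extendByZero_of_not_mem L _ hx, map_zero]

omit [Fintype G] in
theorem conjFun_real_smul {ε : ℂ} (hε : ε = 1 ∨ ε = -1) (f : G → ℂ) :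
    conjFun (ε • f) = ε • conjFun f := by
  funext g
  rcases hε with rfl | rfl <;> simp [conjFun]

end Helpers

section Main

variable {G : Type v} [Group G] [Fintype G]

/-- Existence of the data for a Frobenius subgroup with a trivial-intersection kernel. -/
theorem exists_pairData (hodd : Odd (Nat.card G)) (H L : Subgroup G) [Fintype L] (hHL : H < L)
    (hH1 : H ≠ ⊥) (hHn : ∀ x ∈ L, ∀ h ∈ H, x * h * x⁻¹ ∈ H)
    (hfrob : ∀ h ∈ H, h ≠ 1 → L ⊓ Subgroup.centralizer ({h} : Set G) ≤ H)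
    (hTI : IsTISubset (H : Set G)) (hN : Subgroup.normalizer (H : Set G) = L) :
    ∃ (Gen : Set (G → ℂ)) (ψ Φ v : G → ℂ) (ε : ℂ) (e n : ℕ), PairData H L Gen ψ Φ v ε e n := by
  classical
  haveI hKn : (H.subgroupOf L).Normal := by
    refine ⟨fun n hn g => Subgroup.mem_subgroupOf.mpr ?_⟩
    exact hHn _ g.2 _ (Subgroup.mem_subgroupOf.mp hn)
  set K := H.subgroupOf L with hK
  letI : Fintype K := Fintype.ofFinite _
  have hKmem : ∀ x : L, x ∈ K ↔ (x : G) ∈ H := fun x => Subgroup.mem_subgroupOf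
  have hoddL : Odd (Nat.card L) := Odd.of_dvd_nat hodd (Subgroup.card_subgroup_dvd_card L)
  have hC : ∀ n ∈ K, n ≠ 1 → Subgroup.centralizer ({n} : Set L) ≤ K := by
    intro n hn hn1 x hx
    rw [Subgroup.mem_centralizer_singleton_iff] at hx
    refine (hKmem x).mpr ?_
    refine hfrob _ ((hKmem n).mp hn) (fun h => hn1 (Subtype.ext h)) ⟨x.2, ?_⟩
    refine Subgroup.mem_centralizer_singleton_iff.mpr ?_
    exact congrArg Subtype.val hx
  have hKL : K < ⊤ := by
    refine lt_top_iff_ne_top.mpr fun h => ?_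
    apply hHL.not_ge
    intro x hx
    have h1 : (⟨x, hx⟩ : L) ∈ K := by rw [h]; trivial
    exact (hKmem _).mp h1
  have hti : ∀ g : G, g ∉ L → ∀ s ∈ H, g * s * g⁻¹ ∈ H → s = 1 := by
    rw [← hN]
    exact hTI
  have hHLle : H ≤ L := hHL.le
  have hKcard : Nat.card K = Nat.card H := Nat.card_congr (Subgroup.subgroupOfEquivOfLe hHLle).toEquiv
  have hK1 : K ≠ ⊥ := by
    intro h
    apply hH1
    rw [eq_bot_iff]
    intro x hx
    have h1 : (⟨x, hHLle hx⟩ : L) ∈ K := (hKmem _).mpr hx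
    rw [h, Subgroup.mem_bot] at h1
    exact Subgroup.mem_bot.mpr (congrArg Subtype.val h1)
  have hnilK : Group.IsNilpotent K := kernel_nilpotent hKL hC
  have hnilH : Group.IsNilpotent H := by
    have e : K ≃* H := Subgroup.subgroupOfEquivOfLe hHLle
    exact (Group.isNilpotent_congr e).mp hnilK
  have hsolv : Group.IsSolvable K := inferInstance
  -- numerical facts
  set e := K.index with he
  have heodd : Odd e := Odd.of_dvd_nat hoddL (Subgroup.index_dvd_card K)
  have he3 : 3 ≤ e := by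
    have h1 : e ≠ 1 := fun h => hKL.ne (Subgroup.index_eq_one.mp h)
    rcases heodd with ⟨t, ht⟩
    omega
  have hKodd : Odd (Nat.card K) := Odd.of_dvd_nat hoddL (Subgroup.card_subgroup_dvd_card K)
  obtain ⟨n, hn⟩ := index_dvd_card_sub_one hC (le_refl K)
  have hKgt : 1 < Nat.card K :=
    Finite.one_lt_card_iff_nontrivial.mpr ((Subgroup.nontrivial_iff_ne_bot K).mpr hK1)
  have hcardK : Nat.card K = 1 + n * e := by
    rw [mul_comm]
    rw [← hn]
    omega
  have hn2 : 2 ≤ n := by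
    have h1 : n ≠ 0 := by
      rintro rfl
      simp at hcardK
      omega
    have h2 : Even (n * e) := by
      rcases hKodd with ⟨t, ht⟩
      rw [hcardK] at ht
      exact ⟨t, by omega⟩
    have h3 : Even n := by
      rcases (Nat.even_mul.mp h2) with h | h
      · exact h
      · exact absurd h (Nat.not_even_iff_odd.mpr heodd)
    rcases h3 with ⟨t, ht⟩
    omega
  -- coherence
  obtain ⟨-, T, hT, hagree⟩ := coh_ti_frob H L hoddL hHLle hH1 hnilH hKL hC hTI hN
  set S := inducedIrrAbove K ⊥ with hS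
  have hSirr : ∀ χ ∈ S, IsIrrCharacter L χ := fun χ hχ => inducedIrrAbove_irr hC hχ
  obtain ⟨hind, hind1⟩ := ind_isometry hHLle hti (⊥ : Subgroup L)
  have hon : ∀ {α : L → ℂ}, α ∈ zspan S → α 1 = 0 → α ∈ zspanOn S ({1}ᶜ : Set L) :=
    fun h1 h2 => mem_zspanOn_one.mpr ⟨h1, h2⟩
  have h0 : ∀ α ∈ zspan S, α 1 = 0 → T α 1 = 0 := by
    intro α hα hα1
    have h1 := hon hα hα1
    rw [hagree α h1]
    exact hind1 α h1
  have hTind : ∀ {α : L → ℂ}, α ∈ zspan S → α 1 = 0 → T α = indFun L α := fun h1 h2 =>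
    hagree _ (hon h1 h2)
  have hvanS : ∀ {α : L → ℂ}, α ∈ zspan S → ∀ x : L, (x : G) ∉ H → α x = 0 := by
    intro α hα x hx
    exact (zspan_induced_props hα).2.1 x (fun h => hx ((hKmem x).mp h))
  -- the linear character
  have hbotK : (⊥ : Subgroup L) < K := bot_lt_iff_ne_bot.mpr hK1
  obtain ⟨θ₀, hθ₀, hθ₀ne, hθ₀1, -⟩ := exists_linear_above (K := K) hsolv hbotK
  set χ₀ : L → ℂ := indFun K θ₀ with hχ₀def
  have hmemS : ∀ {θ : K → ℂ}, IsIrrCharacter K θ → θ ≠ (fun _ => 1) → indFun K θ ∈ S := by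
    intro θ h1 h2
    refine ⟨θ, h1, h2, ?_, rfl⟩
    intro a ha
    have h3 : (a : L) = 1 := Subgroup.mem_bot.mp ha
    have h4 : a = 1 := Subtype.ext h3
    rw [h4]
  have hχ₀S : χ₀ ∈ S := hmemS hθ₀ hθ₀ne
  have hχ₀irr := hSirr χ₀ hχ₀S
  have hχ₀c : conjFun χ₀ ∈ S := inducedIrrAbove_conj hχ₀S
  have hSne : ∀ χ ∈ S, conjFun χ ≠ χ := fun χ hχ => inducedIrrAbove_conj_ne hoddL hχ (hSirr χ hχ)
  have hχ₀one : χ₀ 1 = (e : ℂ) := by
    rw [hχ₀def, indFun_one, hθ₀1, mul_one]
  -- the sign
  obtain ⟨ε, hε, hTirr, hinj⟩ := Cfsg.Agent.S1529.result L S hSirr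
    ⟨χ₀, hχ₀S, conjFun χ₀, hχ₀c, (hSne χ₀ hχ₀S).symm⟩ T hT h0
  have hε0 : ε ≠ 0 := by
    rcases hε with rfl | rfl <;> norm_num
  have hεε : ε * ε = 1 := by
    rcases hε with rfl | rfl <;> norm_num
  have hεc : conj ε = ε := by
    rcases hε with rfl | rfl <;> simp
  have hsmulinj : ∀ {f f' : G → ℂ}, ε • f = ε • f' → f = f' := by
    intro f f' h
    have h1 := congrArg (fun w => ε • w) h
    simpa [smul_smul, hεε] using h1
  have hχdiff : ∀ χ ∈ S, χ - conjFun χ ∈ zspanOn S ({1}ᶜ : Set L) ∧ (χ - conjFun χ) 1 = 0 := by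
    intro χ hχ
    have h1 : (χ - conjFun χ) 1 = 0 := by
      have h2 := map_one_eq_charDegree (IsIrrCharacter.isCharacter (hSirr χ hχ))
      simp [conjFun, h2]
    exact ⟨hon (zspan_sub (mem_zspan_of_mem hχ) (mem_zspan_of_mem (inducedIrrAbove_conj hχ))) h1, h1⟩
  have hTdiff : ∀ χ ∈ S, T χ - T (conjFun χ) = indFun L (χ - conjFun χ) := by
    intro χ hχ
    rw [← isometry_sub hT (mem_zspan_of_mem hχ) (mem_zspan_of_mem (inducedIrrAbove_conj hχ))]
    exact hagree _ (hχdiff χ hχ).1
  have hconj : ∀ χ ∈ S, conjFun (T χ) = T (conjFun χ) := by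
    intro χ hχ
    have hχc := inducedIrrAbove_conj hχ
    have hirr1 := hTirr χ hχ
    have hirr2 := hTirr _ hχc
    have hne : ε • T χ ≠ ε • T (conjFun χ) := by
      intro h
      exact hSne χ hχ (hinj _ hχc _ hχ (hsmulinj h).symm)
    have hrel : T χ + conjFun (T χ) = T (conjFun χ) + conjFun (T (conjFun χ)) := by
      have h1 := hTdiff χ hχ
      have h2 : conjFun (T χ - T (conjFun χ)) = T (conjFun χ) - T χ := by
        rw [h1, conjFun_indFun_sub]
        have h3 : conjFun (χ - conjFun χ) = conjFun χ - χ := by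
          funext x
          simp [conjFun]
        rw [h3]
        have h4 := hTdiff _ hχc
        rw [conjFun_conjFun] at h4
        exact h4.symm
      funext g
      have h5 := congrFun h2 g
      simp only [conjFun, Pi.sub_apply, map_sub] at h5
      simp only [conjFun, Pi.add_apply]
      linear_combination h5
    have hrel' : ε • T χ + conjFun (ε • T χ) = ε • T (conjFun χ) + conjFun (ε • T (conjFun χ)) := by
      rw [conjFun_real_smul hε, conjFun_real_smul hε, ← smul_add, ← smul_add, hrel]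
    have h6 := conj_of_irr_relation hirr1 hirr2 hne hrel'
    rw [conjFun_real_smul hε] at h6
    exact hsmulinj h6
  obtain ⟨β, hβ, hβnorm, hβ1⟩ := exists_beta hC hcardK
  set β₀ : L → ℂ := rhoK K - χ₀ with hβ₀
  have hχ₀class : IsClassFunction L χ₀ := IsCharacter.isClassFunction (IsIrrCharacter.isCharacter hχ₀irr)
  have hβ₀class : IsClassFunction L β₀ := fun g y => by
    simp only [hβ₀, Pi.sub_apply]
    rw [rhoK_isClass g y, hχ₀class g y]
  have hχ₀van : ∀ x : L, (x : G) ∉ H → χ₀ x = 0 := fun x hx =>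
    indFun_normal_of_not_mem hKn _ (fun h => hx ((hKmem x).mp h))
  have hβ₀van : ∀ x : L, (x : G) ∉ H → β₀ x = 0 := by
    intro x hx
    simp only [hβ₀, Pi.sub_apply]
    rw [hχ₀van x hx, rhoK_of_not_mem (fun h => hx ((hKmem x).mp h)), sub_zero]
  have hβ₀1 : β₀ 1 = 0 := by
    simp only [hβ₀, Pi.sub_apply]
    rw [hχ₀one, rhoK_of_mem K.one_mem, sub_self]
  have hβ₀gen : IsGeneralizedCharacter L β₀ :=
    IsGeneralizedCharacter.sub (IsGeneralizedCharacter.of_isCharacter rhoK_isCharacter)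
      (IsGeneralizedCharacter.of_isCharacter (IsIrrCharacter.isCharacter hχ₀irr))
  have hβ₀one : classInner β₀ (fun _ => (1 : ℂ)) = 1 := beta_one hθ₀ hθ₀ne
  -- the multiplicities on `S`
  have hrow : ∀ (ξ : G → ℂ), IsClassFunction G ξ → ∀ θ : K → ℂ, IsIrrCharacter K θ → θ ≠ (fun _ => 1) →
      classInner (fun u : L => ξ u) (indFun K θ) =
        (charDegree θ : ℂ) * classInner (fun u : L => ξ u) χ₀ -
          (charDegree θ : ℂ) * classInner ξ (T χ₀) + classInner ξ (T (indFun K θ)) := by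
    intro ξ hξ θ hθ hne
    have hχS := hmemS hθ hne
    have hmem : ((charDegree θ : ℕ) : ℤ) • χ₀ - indFun K θ ∈ zspan S :=
      zspan_sub (zspan_smul _ (mem_zspan_of_mem hχ₀S)) (mem_zspan_of_mem hχS)
    have hval : (((charDegree θ : ℕ) : ℤ) • χ₀ - indFun K θ) 1 = 0 := by
      simp only [Pi.sub_apply, Pi.smul_apply]
      rw [zsmul_eq_mul, Int.cast_natCast, hχ₀one, indFun_one,
        map_one_eq_charDegree (IsIrrCharacter.isCharacter hθ)]
      ring
    have hTα : T (((charDegree θ : ℕ) : ℤ) • χ₀ - indFun K θ) =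
        (charDegree θ : ℂ) • T χ₀ - T (indFun K θ) := by
      rw [isometry_sub hT (zspan_smul _ (mem_zspan_of_mem hχ₀S)) (mem_zspan_of_mem hχS),
        hT.2.1 _ (mem_zspan_of_mem hχ₀S)]
      congr 1
      funext g
      simp
    have h1 := hTind hmem hval
    rw [hTα] at h1
    have h2 := frobenius_reciprocity' L (((charDegree θ : ℕ) : ℤ) • χ₀ - indFun K θ) ξ hξ
    rw [← h1, classInner_sub_right, classInner_smul_right, Complex.conj_natCast,
      classInner_sub_right, classInner_zsmul_right] at h2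
    push_cast at h2
    linear_combination h2
  have hcl : ∀ {ξ : G → ℂ}, IsClassFunction G ξ → IsClassFunction L (fun u : L => ξ u) :=
    fun hξ g y => hξ _ _
  have hTχ₀norm : classInner (T χ₀) (T χ₀) = 1 := by
    rw [hT.2.2.1 _ (mem_zspan_of_mem hχ₀S) _ (mem_zspan_of_mem hχ₀S), classInner_irr_self hχ₀irr]
  have hTχ₀mem := mem_zspan_of_mem hχ₀S
  have hcardL : Nat.card L = Nat.card H * e := by
    rw [← hKcard]
    exact (Subgroup.card_mul_index K).symm
  have hcardH : Nat.card H = 1 + n * e := by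
    rw [← hKcard]
    exact hcardK
  refine ⟨T '' S, T χ₀, indFun L β₀, T β, ε, e, n, ?_⟩
  refine
    { card_H := hcardH
      card_L := hcardL
      two_le := hn2
      three_le := he3
      gen_pm := ?_
      gen_conj := ?_
      gen_ne := ?_
      gen_one := ?_
      gen_supp := ?_
      mem := ⟨χ₀, hχ₀S, rfl⟩
      eps := hε
      irr := hTirr χ₀ hχ₀S
      pi_gen := indFun_isGeneralized L hβ₀gen
      pi_real := ?_
      pi_norm := ?_
      pi_one := ?_
      pi_supp := suppOn_indFun β₀ hβ₀van hβ₀1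
      v_mem := ?_
      v_norm := ?_
      v_supp := ?_
      row_other := ?_
      row_self := ?_ }
  · rintro _ ⟨χ, hχ, rfl⟩
    have h1 := hTirr χ hχ
    rcases hε with rfl | rfl
    · rw [one_smul] at h1
      exact Or.inl h1
    · have h2 : (-1 : ℂ) • T χ = - T χ := by simp
      rw [h2] at h1
      exact Or.inr h1
  · rintro _ ⟨χ, hχ, rfl⟩
    rw [hconj χ hχ]
    exact ⟨_, inducedIrrAbove_conj hχ, rfl⟩
  · rintro _ ⟨χ, hχ, rfl⟩ h
    rw [hconj χ hχ] at h
    exact hSne χ hχ (hinj _ (inducedIrrAbove_conj hχ) _ hχ h)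
  · rintro _ ⟨χ, hχ, rfl⟩
    have h1 : ε • T χ ≠ fun _ => 1 := by
      intro h
      have h2 : conjFun (ε • T χ) = ε • T χ := by
        rw [h]
        funext g
        simp [conjFun]
      rw [conjFun_real_smul hε] at h2
      have h3 := hsmulinj h2
      rw [hconj χ hχ] at h3
      exact hSne χ hχ (hinj _ (inducedIrrAbove_conj hχ) _ hχ h3)
    have h2 := classInner_irr_of_ne (hTirr χ hχ) isIrrCharacter_one h1
    rw [classInner_smul_left] at h2
    exact (mul_eq_zero.mp h2).resolve_left hε0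
  · rintro _ ⟨χ, hχ, rfl⟩
    rw [hconj χ hχ, hTdiff χ hχ]
    exact suppOn_indFun _ (hvanS (hχdiff χ hχ).1.1) (hχdiff χ hχ).2
  · -- the real part
    rw [conjFun_indFun_sub]
    have h1 : conjFun β₀ = rhoK K - conjFun χ₀ := by
      funext x
      have h2 := congrFun (rhoK_conj (K := K)) x
      simp only [conjFun, Pi.sub_apply] at h2 ⊢
      rw [hβ₀]
      simp only [Pi.sub_apply, map_sub]
      rw [h2]
    rw [h1, hconj χ₀ hχ₀S, hβ₀, ← indFun_sub]
    have h2 : rhoK K - χ₀ - (rhoK K - conjFun χ₀) = conjFun χ₀ - conjFun (conjFun χ₀) := by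
      rw [conjFun_conjFun]
      abel
    rw [h2, ← hTdiff _ hχ₀c, conjFun_conjFun]
  · rw [classInner_indFun_ti L (H : Set G) hHLle hti β₀ β₀ hβ₀class hβ₀class hβ₀van hβ₀van hβ₀1]
    exact beta_norm hθ₀ hθ₀ne hχ₀irr
  · rw [frobenius_reciprocity L β₀ (fun _ => 1) one_isClass]
    exact hβ₀one
  · have key : β ∈ zspan S ∧ T β ∈ zspan (T '' S) := by
      refine zspan_induction (p := fun f => f ∈ zspan S ∧ T f ∈ zspan (T '' S)) ?_ ?_ ?_ ?_ hβ
      · refine ⟨zspan_zero, ?_⟩
        rw [isometry_zero hT zspan_zero]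
        exact zspan_zero
      · intro f hf
        exact ⟨mem_zspan_of_mem hf, mem_zspan_of_mem ⟨f, hf, rfl⟩⟩
      · rintro f g ⟨hf, hf'⟩ ⟨hg, hg'⟩
        refine ⟨zspan_add hf hg, ?_⟩
        rw [hT.1 _ hf _ hg]
        exact zspan_add hf' hg'
      · rintro m f ⟨hf, hf'⟩
        refine ⟨zspan_smul _ hf, ?_⟩
        rw [hT.2.1 _ hf]
        exact zspan_smul _ hf'
    exact key.2
  · rw [hT.2.2.1 _ hβ _ hβ, hβnorm]
  · have hmem : β - ((n : ℕ) : ℤ) • χ₀ ∈ zspan S := zspan_sub hβ (zspan_smul _ hTχ₀mem)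
    have hval : (β - ((n : ℕ) : ℤ) • χ₀) 1 = 0 := by
      simp only [Pi.sub_apply, Pi.smul_apply]
      rw [zsmul_eq_mul, Int.cast_natCast, hχ₀one, hβ1]
      ring
    have h1 := hTind hmem hval
    rw [isometry_sub hT hβ (zspan_smul _ hTχ₀mem), hT.2.1 _ hTχ₀mem] at h1
    have h2 : T β - (n : ℂ) • T χ₀ = T β - ((n : ℕ) : ℤ) • T χ₀ := by
      congr 1
      funext g
      simp
    rw [h2, h1]
    exact suppOn_indFun _ (hvanS hmem) hval
  · -- the row lemma for other functions
    intro ξ hξ hξ0 x hx hx1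
    have hξχ₀ : classInner ξ (T χ₀) = 0 := hξ0 _ ⟨χ₀, hχ₀S, rfl⟩
    set k := classInner (fun u : L => ξ u) χ₀ with hk
    have hmult : ∀ θ : K → ℂ, IsIrrCharacter K θ → θ ≠ (fun _ => 1) →
        classInner (fun u : L => ξ u) (indFun K θ) = k * θ 1 := by
      intro θ hθ hne
      rw [hrow ξ hξ θ hθ hne, hξχ₀, hξ0 _ ⟨_, hmemS hθ hne, rfl⟩,
        map_one_eq_charDegree (IsIrrCharacter.isCharacter hθ)]
      ring
    have hconst : ∀ u : L, (u : G) ∈ H → u ≠ 1 → ξ u = ξ 1 - k * Nat.card K := by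
      intro u hu hu1
      have h1 := row_const (hcl hξ) k hmult ((hKmem u).mpr hu) hu1
      exact h1
    have hval : classInner ξ (indFun L β₀) = classInner (fun u : L => ξ u) β₀ :=
      frobenius_reciprocity' L β₀ ξ hξ
    have hval2 : classInner (fun u : L => ξ u) β₀ = classInner
        ((ξ 1 - k * Nat.card K) • (fun _ : L => (1 : ℂ))) β₀ := by
      simp only [classInner_def]
      congr 1
      refine Finset.sum_congr rfl fun u _ => ?_
      by_cases hu : (u : G) ∈ H ∧ u ≠ 1
      · simp only [Pi.smul_apply, smul_eq_mul, mul_one]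
        rw [hconst u hu.1 hu.2]
      · have h3 : β₀ u = 0 := by
          by_cases hu' : (u : G) ∈ H
          · have h4 : u = 1 := by
              by_contra h5
              exact hu ⟨hu', h5⟩
            rw [h4, hβ₀1]
          · exact hβ₀van u hu'
        rw [h3, map_zero, mul_zero, mul_zero]
    have h1 := hconst ⟨x, hHLle hx⟩ hx (fun h => hx1 (congrArg Subtype.val h))
    rw [h1, hval, hval2, classInner_smul_left]
    have h5 : classInner (fun _ : L => (1 : ℂ)) β₀ = 1 := by
      rw [← conj_classInner, hβ₀one, map_one]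
    rw [h5, mul_one]
  · -- the row lemma for the character itself
    have hirr0 := hTirr χ₀ hχ₀S
    have hξclass : IsClassFunction G (ε • T χ₀) :=
      IsCharacter.isClassFunction (IsIrrCharacter.isCharacter hirr0)
    set ξ : G → ℂ := ε • T χ₀ with hξ
    set k := classInner (fun u : L => ξ u) χ₀ with hk
    have hresgen : IsGeneralizedCharacter L (fun u : L => ξ u) :=
      IsGeneralizedCharacter.of_isCharacter (IsCharacter.restrict L (IsIrrCharacter.isCharacter hirr0))
    obtain ⟨k₀, hk₀⟩ := classInner_isGeneralized_int hresgen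
      (IsGeneralizedCharacter.of_isCharacter (IsIrrCharacter.isCharacter hχ₀irr))
    have hξTχ₀ : classInner ξ (T χ₀) = ε := by
      rw [hξ, classInner_smul_left, hTχ₀norm, mul_one]
    have hξT : ∀ χ ∈ S, classInner ξ (T χ) = ε * classInner χ₀ χ := by
      intro χ hχ
      rw [hξ, classInner_smul_left, hT.2.2.1 _ hTχ₀mem _ (mem_zspan_of_mem hχ)]
    set g₀ : L → ℂ := (fun u : L => ξ u) - ε • χ₀ with hg₀
    have hg₀class : IsClassFunction L g₀ := fun g y => by
      simp only [hg₀, Pi.sub_apply, Pi.smul_apply, smul_eq_mul]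
      have h1 : ξ ((y * g * y⁻¹ : L) : G) = ξ (g : G) := hcl hξclass g y
      rw [h1, hχ₀class g y]
    have hmult : ∀ θ : K → ℂ, IsIrrCharacter K θ → θ ≠ (fun _ => 1) →
        classInner g₀ (indFun K θ) = (k - ε) * θ 1 := by
      intro θ hθ hne
      rw [hg₀, classInner_sub_left, classInner_smul_left, hrow ξ hξclass θ hθ hne, hξTχ₀,
        hξT _ (hmemS hθ hne), map_one_eq_charDegree (IsIrrCharacter.isCharacter hθ)]
      ring
    obtain ⟨ε₀, hε₀, hε₀c⟩ : ∃ ε₀ : ℤ, (ε₀ = 1 ∨ ε₀ = -1) ∧ ε = (ε₀ : ℂ) := by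
      rcases hε with rfl | rfl
      · exact ⟨1, Or.inl rfl, by simp⟩
      · exact ⟨-1, Or.inr rfl, by simp⟩
    have hξone : ξ 1 = (charDegree ξ : ℂ) := map_one_eq_charDegree (IsIrrCharacter.isCharacter hirr0)
    refine row_self_numeric (χ₀ := χ₀) (f := fun u : L => ξ u) (ε := (ε₀ : ℝ))
      (κ := (charDegree ξ : ℤ) - ε₀ * e - (k₀ - ε₀) * Nat.card K) hHLle hχ₀van ?_ ?_ hχ₀one ?_ ?_ hcardL
      hcardH hn2 (by omega)
    · have h1 := inner_chi_one hθ₀ hθ₀ne
      rw [classInner_def] at h1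
      have h2 : (Nat.card L : ℂ) ≠ 0 := by exact_mod_cast (Nat.card_pos (α := L)).ne'
      have h3 := (mul_eq_zero.mp h1).resolve_left (inv_ne_zero h2)
      simpa using h3
    · have h1 := classInner_irr_self hχ₀irr
      rw [classInner_def] at h1
      have h2 : (Nat.card L : ℂ) ≠ 0 := by exact_mod_cast (Nat.card_pos (α := L)).ne'
      have h3 : ∑ g, χ₀ g * conj (χ₀ g) = (Nat.card L : ℂ) := by
        field_simp at h1
        exact h1
      have h4 : ((∑ x : L, ‖χ₀ x‖ ^ 2 : ℝ) : ℂ) = ((Nat.card L : ℝ) : ℂ) := by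
        push_cast
        rw [← h3]
        refine Finset.sum_congr rfl fun x _ => ?_
        rw [Complex.mul_conj, Complex.normSq_eq_norm_sq]
        push_cast
        rfl
      exact_mod_cast h4
    · rcases hε₀ with rfl | rfl
      · left; simp
      · right; simp
    · intro x hx hx1
      have h1 := row_const hg₀class (k - ε) hmult ((hKmem x).mpr hx)
        (fun h => hx1 (congrArg Subtype.val h))
      simp only [hg₀, Pi.sub_apply, Pi.smul_apply, smul_eq_mul] at h1
      have hk₀' : k = (k₀ : ℂ) := hk₀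
      rw [hχ₀one, Subgroup.coe_one, hξone, hk₀', hε₀c] at h1
      push_cast
      linear_combination h1

end Main

end Cfsg.Agent.Lib.OddChar
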