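import Mathlib
import Cfsg.Agent.Lib.OddChar.PairTI

/-!
# No group of odd order is partitioned by the conjugates of Frobenius kernels of coprime orders.
-/

set_option autoImplicit false

open scoped ComplexConjugate

namespace Cfsg.Agent.Lib.OddChar

open Cfsg (classInner IsCharacter IsIrrCharacter IsClassFunction IsGeneralizedCharacter zspan zspanOn
  conjFun IsLinearIsometryOn IsCoherent IsCoherenceSystem IrrCharacter indFun extendByZero
  inducedIrrAbove charDegree IsTISubset)
open Cfsg.Agent.Lib.Char Cfsg.Agent.Lib.Degree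

universe u v

section PMfacts

variable {G : Type v} [Group G] [Fintype G]

theorem pm_conj_one {w : G → ℂ} (hw : PM G w) : conjFun w 1 = w 1 := by
  rcases hw with h | h
  · have h1 := map_one_eq_charDegree (IsIrrCharacter.isCharacter h)
    simp only [conjFun]
    rw [h1, Complex.conj_natCast]
  · have h1 := map_one_eq_charDegree (IsIrrCharacter.isCharacter h)
    have h2 : w 1 = - (charDegree (-w) : ℂ) := by
      have h3 : (-w) 1 = - w 1 := rfl
      rw [h3] at h1
      linear_combination -h1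
    simp only [conjFun]
    rw [h2, map_neg, Complex.conj_natCast]

theorem pm_inner_conj {w : G → ℂ} (hw : PM G w) (hc : PM G (conjFun w)) (hne : conjFun w ≠ w) :
    classInner w (conjFun w) = 0 := by
  rcases pm_inner hw hc with h | ⟨h, -⟩ | ⟨h, -⟩
  · exact h
  · exact absurd h.symm hne
  · exfalso
    have h1 := congrFun h 1
    have h2 : (- conjFun w) 1 = - conjFun w 1 := rfl
    rw [h2, pm_conj_one hw] at h1
    apply PM.map_one_ne hw
    linear_combination (1 / 2 : ℂ) * h1

/-- Images attached to different kernels are orthogonal. -/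
theorem cross_orth {H L H' L' : Subgroup G} [Fintype L] [Fintype L'] {Gen Gen' : Set (G → ℂ)}
    {ψ Φ v ψ' Φ' v' : G → ℂ} {ε ε' : ℂ} {e n e' n' : ℕ}
    (hD : PairData H L Gen ψ Φ v ε e n) (hD' : PairData H' L' Gen' ψ' Φ' v' ε' e' n')
    (hcop : Nat.Coprime (Nat.card H) (Nat.card H')) :
    ∀ w ∈ Gen, ∀ w' ∈ Gen', classInner w w' = 0 := by
  intro w hw w' hw'
  have h1 := hD.gen_pm w hw
  have h2 := hD.gen_pm _ (hD.gen_conj w hw)
  have h3 := hD'.gen_pm w' hw'
  have h4 := hD'.gen_pm _ (hD'.gen_conj w' hw')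
  refine four_orth_pos (u' := 1) (v' := 1) (u := 1) (v := 1) h1 h2 h3 h4 one_pos one_pos one_pos one_pos
    (pm_inner_conj h1 h2 (hD.gen_ne w hw)) (pm_inner_conj h3 h4 (hD'.gen_ne w' hw')) ?_ ?_ ?_
  · simp only [Complex.ofReal_one, one_smul]
    exact inner_eq_zero_of_suppOn hcop (hD.gen_supp w hw) (hD'.gen_supp w' hw')
  · simp [pm_conj_one h1]
  · simp [pm_conj_one h3]

/-- The parity statement for two kernels. -/
theorem parity_pair (hodd : Odd (Nat.card G)) {H L H' L' : Subgroup G} [Fintype L] [Fintype L']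
    {Gen Gen' : Set (G → ℂ)} {ψ Φ v ψ' Φ' v' : G → ℂ} {ε ε' : ℂ} {e n e' n' : ℕ}
    (hD : PairData H L Gen ψ Φ v ε e n) (hD' : PairData H' L' Gen' ψ' Φ' v' ε' e' n')
    (hcop : Nat.Coprime (Nat.card H) (Nat.card H')) :
    classInner Φ ψ' ≠ 0 ∨ classInner ψ Φ' ≠ 0 := by
  have hψ := hD.gen_pm ψ hD.mem
  have hψ' := hD'.gen_pm ψ' hD'.mem
  have hreal : ∀ {H L : Subgroup G} [Fintype L] {Gen : Set (G → ℂ)} {ψ Φ v : G → ℂ} {ε : ℂ} {e n : ℕ},
      PairData H L Gen ψ Φ v ε e n → conjFun (Φ + ψ) = Φ + ψ := by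
    intro H L _ Gen ψ Φ v ε e n hD
    have h1 := hD.pi_real
    funext g
    have h2 := congrFun h1 g
    simp only [Pi.sub_apply, conjFun, Pi.add_apply, map_add] at h2 ⊢
    linear_combination -h2
  have hone : ∀ {H L : Subgroup G} [Fintype L] {Gen : Set (G → ℂ)} {ψ Φ v : G → ℂ} {ε : ℂ} {e n : ℕ},
      PairData H L Gen ψ Φ v ε e n → classInner (Φ + ψ) (fun _ => 1) = ((1 : ℤ) : ℂ) := by
    intro H L _ Gen ψ Φ v ε e n hD
    rw [classInner_add_left, hD.pi_one, hD.gen_one ψ hD.mem]
    simp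
  obtain ⟨m, hm, hdvd⟩ := parity_real hodd
    (IsGeneralizedCharacter.add hD.pi_gen (PM.isGeneralized hψ))
    (IsGeneralizedCharacter.add hD'.pi_gen (PM.isGeneralized hψ'))
    (hreal hD) (hreal hD') (hone hD) (hone hD')
  rw [classInner_add_left, classInner_add_right, classInner_add_right,
    inner_eq_zero_of_suppOn hcop hD.pi_supp hD'.pi_supp,
    cross_orth hD hD' hcop ψ hD.mem ψ' hD'.mem] at hm
  by_contra hcon
  push Not at hcon
  rw [hcon.1, hcon.2] at hm
  have hm0 : m = 0 := by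
    have : ((m : ℤ) : ℂ) = 0 := by
      rw [← hm]
      ring
    exact_mod_cast this
  rw [hm0] at hdvd
  omega

/-- An integer which is not zero has norm at least one. -/
theorem norm_ge_one_of_int {z : ℂ} {m : ℤ} (h : z = m) (hne : z ≠ 0) : 1 ≤ ‖z‖ := by
  subst h
  have h1 : m ≠ 0 := fun h2 => hne (by rw [h2]; simp)
  rw [Complex.norm_intCast]
  have h2 : (1 : ℤ) ≤ |m| := Int.one_le_abs h1
  exact_mod_cast h2

end PMfacts

section Budget

variable {G : Type v} [Group G] [Fintype G]

/-- Members of `ℤ[Gen]` are orthogonal to the principal character. -/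
theorem zspan_gen_one {H L : Subgroup G} [Fintype L] {Gen : Set (G → ℂ)} {ψ Φ v : G → ℂ} {ε : ℂ}
    {e n : ℕ} (hD : PairData H L Gen ψ Φ v ε e n) {f : G → ℂ} (hf : f ∈ zspan Gen) :
    classInner f (fun _ => 1) = 0 := by
  refine zspan_induction (p := fun f => classInner f (fun _ => (1 : ℂ)) = 0)
    (classInner_zero_left _) (fun w hw => hD.gen_one w hw) ?_ ?_ hf
  · intro f g hf hg
    rw [classInner_add_left, hf, hg, add_zero]
  · intro m f hf
    rw [classInner_zsmul_left, hf, mul_zero]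

/-- The budget inequality obtained from Bessel. -/
theorem budget {ι : Type*} (Gen : ι → Set (G → ℂ)) (H L : ι → Subgroup G) [∀ i, Fintype (L i)]
    (ψ Φ v : ι → G → ℂ) (ε : ι → ℂ) (e n : ι → ℕ)
    (hD : ∀ i, PairData (H i) (L i) (Gen i) (ψ i) (Φ i) (v i) (ε i) (e i) (n i))
    (hcop : ∀ i j, i ≠ j → Nat.Coprime (Nat.card (H i)) (Nat.card (H j))) (i : ι) (Out : Finset ι)
    (hOut : ∀ l ∈ Out, l ≠ i ∧ classInner (Φ i) (ψ l) ≠ 0) :
    2 + ∑ l ∈ Out, (n l : ℝ) ≤ (e i : ℝ) + 1 := by
  classical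
  have hDi := hD i
  have hψ := hDi.gen_pm _ hDi.mem
  have hcm := hDi.gen_conj _ hDi.mem
  have hψc := hDi.gen_pm _ hcm
  have hψψc : classInner (ψ i) (conjFun (ψ i)) = 0 := pm_inner_conj hψ hψc (hDi.gen_ne _ hDi.mem)
  have hψ1 : classInner (ψ i) (fun _ => 1) = 0 := hDi.gen_one _ hDi.mem
  have hψc1 : classInner (conjFun (ψ i)) (fun _ => 1) = 0 := hDi.gen_one _ hcm
  have hvv : ∀ l ∈ Out, ∀ l' ∈ Out, l ≠ l' → classInner (v l) (v l') = 0 := fun l _ l' _ hne =>
    inner_zspan_zspan (cross_orth (hD l) (hD l') (hcop l l' hne)) (hD l).v_mem (hD l').v_mem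
  have hv1 : ∀ l ∈ Out, classInner (v l) (fun _ => 1) = 0 := fun l _ => zspan_gen_one (hD l) (hD l).v_mem
  have hvψ : ∀ l ∈ Out, classInner (v l) (ψ i) = 0 := fun l hl =>
    inner_zspan_zspan (cross_orth (hD l) hDi (hcop l i (hOut l hl).1)) (hD l).v_mem
      (mem_zspan_of_mem hDi.mem)
  have hvψc : ∀ l ∈ Out, classInner (v l) (conjFun (ψ i)) = 0 := fun l hl =>
    inner_zspan_zspan (cross_orth (hD l) hDi (hcop l i (hOut l hl).1)) (hD l).v_mem
      (mem_zspan_of_mem hcm)
  have hconj0 : ∀ {a b : G → ℂ}, classInner a b = 0 → classInner b a = 0 := fun h => by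
    rw [← conj_classInner, h, map_zero]
  let w : Fin 3 ⊕ ι → G → ℂ := Sum.elim (fun a => ![fun _ => 1, ψ i, conjFun (ψ i)] a) v
  let nn : Fin 3 ⊕ ι → ℝ := Sum.elim (fun _ => 1) (fun l => (n l : ℝ))
  let s : Finset (Fin 3 ⊕ ι) := Finset.disjSum Finset.univ Out
  have hnpos : ∀ l, 0 < (n l : ℝ) := fun l => by
    have := (hD l).two_le
    exact_mod_cast (by omega : 0 < n l)
  have hb := bessel s w nn (by
      rintro (a | l) h
      · exact one_pos
      · exact hnpos l)
    (by
      rintro (a | l) ha (b | l') hb hne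
      · have hab : a ≠ b := fun h => hne (by rw [h])
        simp only [w, Sum.elim_inl]
        fin_cases a <;> fin_cases b <;>
          first
          | exact absurd rfl hab
          | (simp only [Fin.isValue, Matrix.cons_val_zero, Matrix.cons_val_one, Matrix.cons_val]
             first
             | exact hconj0 hψ1
             | exact hconj0 hψc1
             | exact hψ1
             | exact hψc1
             | exact hψψc
             | exact hconj0 hψψc)
      · have hl : l' ∈ Out := by simpa [s] using hb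
        simp only [w, Sum.elim_inl, Sum.elim_inr]
        fin_cases a
        · exact hconj0 (hv1 l' hl)
        · exact hconj0 (hvψ l' hl)
        · exact hconj0 (hvψc l' hl)
      · have hl : l ∈ Out := by simpa [s] using ha
        simp only [w, Sum.elim_inl, Sum.elim_inr]
        fin_cases b
        · exact hv1 l hl
        · exact hvψ l hl
        · exact hvψc l hl
      · have hl : l ∈ Out := by simpa [s] using ha
        have hl' : l' ∈ Out := by simpa [s] using hb
        have hll : l ≠ l' := fun h => hne (by rw [h])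
        exact hvv l hl l' hl' hll)
    (by
      rintro (a | l) _
      · simp only [w, nn, Sum.elim_inl, Sum.elim_inr]
        fin_cases a
        · simpa using classInner_irr_self (isIrrCharacter_one (G := G))
        · simpa using PM.self hψ
        · simpa using PM.self hψc
      · simp only [w, nn, Sum.elim_inr]
        have := (hD l).v_norm
        simpa using this)
    (Φ i)
  have hle := hb.1
  rw [Finset.sum_disjSum] at hle
  simp only [w, nn, Sum.elim_inl, Sum.elim_inr, div_one] at hle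
  rw [Fin.sum_univ_three] at hle
  simp only [Fin.isValue, Matrix.cons_val_zero, Matrix.cons_val_one, Matrix.cons_val] at hle
  have hΦnorm : (classInner (Φ i) (Φ i)).re = (e i : ℝ) + 1 := by
    rw [hDi.pi_norm]
    simp
  rw [hΦnorm, hDi.pi_one, norm_one] at hle
  -- the terms from the characters `ψ`, `conj ψ`
  obtain ⟨p, hp⟩ := classInner_isGeneralized_int hDi.pi_gen (PM.isGeneralized hψ)
  obtain ⟨q, hq⟩ := classInner_isGeneralized_int hDi.pi_gen (PM.isGeneralized hψc)
  have hpq : p - q = -1 := by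
    have h1 := congrArg (fun f => classInner f (ψ i)) hDi.pi_real
    simp only [classInner_sub_left] at h1
    have h2 : classInner (conjFun (Φ i)) (ψ i) = (q : ℂ) := by
      have h3 := classInner_conjFun (Φ i) (conjFun (ψ i))
      rw [conjFun_conjFun, hq, map_intCast] at h3
      exact h3
    rw [h2, hp, hconj0 hψψc, PM.self hψ] at h1
    have h4 : ((p - q : ℤ) : ℂ) = ((-1 : ℤ) : ℂ) := by
      push_cast
      linear_combination h1
    exact_mod_cast h4
  have hterm1 : 1 ≤ ‖classInner (Φ i) (ψ i)‖ ^ 2 + ‖classInner (Φ i) (conjFun (ψ i))‖ ^ 2 := by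
    rw [hp, hq, Complex.norm_intCast, Complex.norm_intCast, sq_abs, sq_abs]
    have h5 : (1 : ℤ) ≤ p ^ 2 + q ^ 2 := by
      have h6 : p = q - 1 := by omega
      subst h6
      nlinarith [sq_nonneg (2 * q - 1)]
    exact_mod_cast h5
  have hterm2 : ∀ l ∈ Out, (n l : ℝ) ≤ ‖classInner (Φ i) (v l)‖ ^ 2 / (n l : ℝ) := by
    intro l hl
    obtain ⟨hli, hne⟩ := hOut l hl
    have hs := inner_eq_zero_of_suppOn (hcop i l hli.symm) hDi.pi_supp (hD l).v_supp
    rw [classInner_sub_right, classInner_smul_right, Complex.conj_natCast] at hs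
    have h1 : classInner (Φ i) (v l) = (n l : ℂ) * classInner (Φ i) (ψ l) := by
      linear_combination hs
    obtain ⟨c, hc⟩ := classInner_isGeneralized_int hDi.pi_gen (PM.isGeneralized ((hD l).gen_pm _ (hD l).mem))
    have h2 := norm_ge_one_of_int hc hne
    rw [h1, norm_mul, Complex.norm_natCast, le_div_iff₀ (hnpos l)]
    have h3 : (0 : ℝ) < n l := hnpos l
    have h4 : 1 ≤ ‖classInner (Φ i) (ψ l)‖ ^ 2 := one_le_pow₀ h2
    nlinarith [mul_le_mul_of_nonneg_left h4 (mul_nonneg h3.le h3.le)]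
  have hterm3 : ∑ l ∈ Out, (n l : ℝ) ≤ ∑ l ∈ Out, ‖classInner (Φ i) (v l)‖ ^ 2 / (n l : ℝ) :=
    Finset.sum_le_sum hterm2
  have h0 : (0 : ℝ) ≤ 1 ^ 2 := by norm_num
  simp only [one_pow] at hle
  linarith

end Budget

section Final

/-- The final numerical contradiction. -/
theorem final_numeric {n e : ℕ} {g Win Wout : ℝ} (hn : 2 ≤ n) (he : 3 ≤ e)
    (hg : (1 + (n : ℝ) * e) ≤ g)
    (h1 : 1 = 1 / g + (n : ℝ) / (1 + n * e) + Win + Wout)
    (h2 : Win ≤ (e : ℝ) / (1 + n * e))
    (h3 : Wout ≤ ((e : ℝ) - 1) / (1 + n * e + 1))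
    (h4 : Wout = 0 ∨ (1 + (n : ℝ) * e) * (1 + n * e + 1) ≤ g) : False := by
  have hn' : (2 : ℝ) ≤ n := by exact_mod_cast hn
  have he' : (3 : ℝ) ≤ e := by exact_mod_cast he
  set h : ℝ := 1 + (n : ℝ) * e with hh
  have hpos : 0 < h := by rw [hh]; positivity
  have hgpos : 0 < g := lt_of_lt_of_le hpos hg
  have hrel : h - n - e = ((n : ℝ) - 1) * (e - 1) := by rw [hh]; ring
  have hrel2 : 2 * ((e : ℝ) - 1) ≤ ((n : ℝ) - 1) * (e - 1) * 2 := by nlinarith
  rcases h4 with h4 | h4
  · rw [h4, add_zero] at h1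
    have h5 : 1 / g ≤ 1 / h := one_div_le_one_div_of_le hpos hg
    have h6 : 1 ≤ (1 + (n : ℝ) + e) / h := by
      have : (1 + (n : ℝ) + e) / h = 1 / h + n / h + e / h := by ring
      rw [this]
      linarith
    rw [le_div_iff₀ hpos] at h6
    nlinarith
  · have hp1 : 0 < h + 1 := by linarith
    have h5 : 1 / g ≤ 1 / (h * (h + 1)) := one_div_le_one_div_of_le (by positivity) h4
    have h6 : 1 ≤ 1 / (h * (h + 1)) + n / h + e / h + ((e : ℝ) - 1) / (h + 1) := by
      linarith
    have h7 : 1 / (h * (h + 1)) + n / h + e / h + ((e : ℝ) - 1) / (h + 1) =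
        (1 + (n + e) * (h + 1) + (e - 1) * h) / (h * (h + 1)) := by
      field_simp
      ring
    rw [h7, le_div_iff₀ (by positivity)] at h6
    have h8 : (h + 1) * ((n : ℝ) - 1) * (e - 1) ≥ (h + 1) * (e - 1) := by
      have h9 : 0 ≤ (h + 1) * ((e : ℝ) - 1) := by
        apply mul_nonneg hp1.le
        linarith
      nlinarith
    nlinarith

end Final

end Cfsg.Agent.Lib.OddChar
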